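import Mathlib
import Cfsg.Agent.Lib.Classical.Herm.GLDescent
import Cfsg.Agent.Lib.Classical.Herm.PSLGraphField
import Cfsg.Agent.Lib.Classical.Symp.Aut.Balance

/-!
# Local balance for `PSL`: the field automorphisms
-/

set_option autoImplicit false
set_option linter.unusedSectionVars false
set_option linter.unusedVariables false
set_option linter.unusedSimpArgs false
set_option linter.style.haveILetI false

open scoped Matrix MatrixGroups commutatorElement
open Cfsg
open Cfsg.Agent.Lib.Classical.Herm.Descent Cfsg.Agent.Lib.Classical.Herm.GLDescent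
open Cfsg.Agent.Lib.Linalg.AutPSLBasic Cfsg.Agent.Lib.Linalg.AutPSLStd Cfsg.Agent.Lib.Linalg.AutPSLCount
open Cfsg.Agent.Lib.Linalg.AutPSLMain

namespace Cfsg.Agent.Lib.Classical.PslBal.Fld

section Gen

variable {n : ℕ} {F K : Type*} [Field F] [Field K]

local notation "Pn" => Matrix.ProjectiveSpecialLinearGroup (Fin n) F
local notation "Pk" => Matrix.ProjectiveSpecialLinearGroup (Fin n) K

/-- The map `SL_n(K) → PSL_n(F)`. -/
noncomputable def jSL (j : K →+* F) : Matrix.SpecialLinearGroup (Fin n) K →* Pn :=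
  mkP.comp (Matrix.SpecialLinearGroup.map j)

theorem coe_map (j : K →+* F) (s : Matrix.SpecialLinearGroup (Fin n) K) :
    ((Matrix.SpecialLinearGroup.map j s : Matrix.SpecialLinearGroup (Fin n) F) : Matrix (Fin n) (Fin n) F) =
      (s : Matrix (Fin n) (Fin n) K).map j := rfl

theorem jSL_center (j : K →+* F) (x : Matrix.SpecialLinearGroup (Fin n) K)
    (hx : x ∈ Subgroup.center (Matrix.SpecialLinearGroup (Fin n) K)) : jSL j x = 1 := by
  obtain ⟨r, hr, hrx⟩ := Matrix.SpecialLinearGroup.mem_center_iff.1 hx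
  change mkP (Matrix.SpecialLinearGroup.map j x) = 1
  apply (QuotientGroup.eq_one_iff _).2
  apply Matrix.SpecialLinearGroup.mem_center_iff.2
  refine ⟨j r, by rw [← map_pow, hr, map_one], ?_⟩
  rw [coe_map, ← hrx]
  ext a b
  by_cases h : a = b
  · subst h
    simp
  · simp [h]

/-- The map `PSL_n(K) → PSL_n(F)`. -/
noncomputable def jP (j : K →+* F) : Pk →* Pn :=
  QuotientGroup.lift _ (jSL j) (fun x hx => jSL_center j x hx)

theorem jP_mk (j : K →+* F) (s : Matrix.SpecialLinearGroup (Fin n) K) :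
    jP j (mkP s) = mkP (Matrix.SpecialLinearGroup.map j s) := rfl

theorem conj_injective (hn : 2 ≤ n) [Fintype F] : Function.Injective (MulAut.conj : Pn →* MulAut Pn) := by
  haveI : NeZero n := ⟨by omega⟩
  rw [injective_iff_map_eq_one]
  intro k hk
  obtain ⟨s, rfl⟩ := mkP_surjective k
  rw [conj_mk_eq_conjP] at hk
  obtain ⟨u, hu⟩ := exists_scalar_of_conjP hn hk
  have h1 : mkP (1 : Matrix.SpecialLinearGroup (Fin n) F) = mkP s := by
    apply mkP_eq_iff.2
    refine ⟨u, ?_⟩
    have h2 := congrArg (fun g : GL (Fin n) F => (g : Matrix (Fin n) (Fin n) F)) hu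
    change (s : Matrix (Fin n) (Fin n) F) = _ at h2
    rw [h2, coe_sG]
    ext a b
    by_cases h : a = b
    · subst h
      simp
    · simp [h]
  rw [← h1, map_one]

theorem mkP_eq_one_iff [NeZero n] {s : Matrix.SpecialLinearGroup (Fin n) F} :
    mkP s = 1 ↔ ∃ r : F, (s : Matrix (Fin n) (Fin n) F) = r • 1 := by
  rw [← map_one mkP, eq_comm, mkP_eq_iff]
  simp

/-- A criterion for an element of `jP` to have prime order. -/
theorem order_jP {p : ℕ} [Fact p.Prime] [NeZero n] (j : K →+* F) (s : Matrix.SpecialLinearGroup (Fin n) K)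
    (h1 : ¬ ∃ r : F, ((s : Matrix (Fin n) (Fin n) K).map j) = r • 1)
    (h2 : ∃ r : F, (((s ^ p : Matrix.SpecialLinearGroup (Fin n) K) : Matrix (Fin n) (Fin n) K).map j) = r • 1) :
    orderOf (jP j (mkP s)) = p := by
  apply orderOf_eq_prime
  · rw [← map_pow, ← map_pow, jP_mk]
    exact mkP_eq_one_iff.2 h2
  · rw [jP_mk, Ne, mkP_eq_one_iff]
    exact h1

end Gen

section Group

/-- Elements whose `p`-th power is an `n`-th power. -/
theorem dvd_of_not_pow {Γ : Type*} [CommGroup Γ] [Finite Γ] {p n : ℕ} (hp : p.Prime) {d c : Γ} (h : d ^ p = c ^ n)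
    (hd : ¬ ∃ b : Γ, b ^ n = d) : p ∣ n ∧ p ∣ Nat.card Γ := by
  by_contra hcon
  apply hd
  have h1 : Nat.Coprime p (Nat.gcd n (Nat.card Γ)) := by
    apply (Nat.Prime.coprime_iff_not_dvd hp).2
    intro h2
    exact hcon ⟨h2.trans (Nat.gcd_dvd_left _ _), h2.trans (Nat.gcd_dvd_right _ _)⟩
  -- Bezout
  have hb1 : (1 : ℤ) = p * Nat.gcdA p (Nat.gcd n (Nat.card Γ)) + (Nat.gcd n (Nat.card Γ) : ℤ) * Nat.gcdB p (Nat.gcd n (Nat.card Γ)) := by
    have := Nat.gcd_eq_gcd_ab p (Nat.gcd n (Nat.card Γ))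
    rw [h1] at this
    simpa using this
  have hb2 : ((Nat.gcd n (Nat.card Γ) : ℕ) : ℤ) = n * Nat.gcdA n (Nat.card Γ) + (Nat.card Γ : ℤ) * Nat.gcdB n (Nat.card Γ) :=
    Nat.gcd_eq_gcd_ab _ _
  set x := Nat.gcdA p (Nat.gcd n (Nat.card Γ))
  set y := Nat.gcdB p (Nat.gcd n (Nat.card Γ))
  set α := Nat.gcdA n (Nat.card Γ)
  set β := Nat.gcdB n (Nat.card Γ)
  have hc : d ^ (Nat.card Γ : ℤ) = 1 := by
    rw [zpow_natCast]
    exact pow_card_eq_one'
  refine ⟨c ^ x * d ^ (α * y), ?_⟩
  have h5 : c ^ ((n : ℤ) * x) = d ^ ((p : ℤ) * x) := by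
    rw [zpow_mul, zpow_mul, zpow_natCast, zpow_natCast, h]
  have h6 : (c ^ x * d ^ (α * y)) ^ n = d ^ ((p : ℤ) * x + (n : ℤ) * α * y) := by
    rw [mul_pow, ← zpow_natCast (c ^ x), ← zpow_natCast (d ^ (α * y)), ← zpow_mul, ← zpow_mul, mul_comm x, h5, zpow_add]
    congr 2
    ring
  rw [h6]
  have h7 : d ^ ((p : ℤ) * x + (n : ℤ) * α * y) * (d ^ (Nat.card Γ : ℤ)) ^ (β * y) = d ^ (1 : ℤ) := by
    rw [hb1, hb2, ← zpow_mul, ← zpow_add]
    congr 1
    ring
  rw [hc, one_zpow, mul_one, zpow_one] at h7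
  exact h7

end Group

section Key

/-- A normal subgroup of the image of a group with a distinguished element in each normal subgroup. -/
theorem bot_of_key {P G : Type*} [Group P] [Group G] (Ψ : P →* G) (N : Subgroup G) (hNT : N ≤ Ψ.range)
    (hNn : ∀ t ∈ Ψ.range, ∀ y ∈ N, t * y * t⁻¹ ∈ N) {p : ℕ} (hp : p.Prime) (y : P)
    (hy : ∀ M : Subgroup P, M.Normal → M = ⊥ ∨ y ∈ M) (hyo : orderOf (Ψ y) = p) (hco : (Nat.card N).Coprime p) : N = ⊥ := by
  have hM : (N.comap Ψ).Normal := by
    constructor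
    intro x hx g
    rw [Subgroup.mem_comap, map_mul, map_mul, map_inv]
    exact hNn _ ⟨g, rfl⟩ _ hx
  rcases hy _ hM with h | h
  · rw [Subgroup.eq_bot_iff_forall]
    rintro z hz
    obtain ⟨y₁, rfl⟩ := hNT hz
    have h1 : y₁ ∈ N.comap Ψ := hz
    rw [h, Subgroup.mem_bot] at h1
    subst h1
    simp
  · exfalso
    have h2 : p ∣ Nat.card N := by
      have h3 : orderOf (⟨Ψ y, h⟩ : N) = p := by
        rw [← Subgroup.orderOf_coe]
        exact hyo
      rw [← h3]
      exact orderOf_dvd_natCard _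
    have h3 := Nat.Coprime.eq_one_of_dvd (Nat.Coprime.symm hco) h2
    exact hp.one_lt.ne' h3

end Key

section Iwasawa

open Cfsg.Agent.Lib.Classical.Lin.Transvections

/-- A normal subgroup of `PSL` is trivial or contains the commutator subgroup. -/
theorem normal_dichotomy {K : Type*} [Field K] {ι : Type*} [Fintype ι] [DecidableEq ι] [Nontrivial ι]
    (M : Subgroup (Matrix.ProjectiveSpecialLinearGroup ι K)) [hM : M.Normal] :
    M = ⊥ ∨ commutator (Matrix.ProjectiveSpecialLinearGroup ι K) ≤ M := by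
  have hfaith : FaithfulSMul (Matrix.ProjectiveSpecialLinearGroup ι K) (Projectivization K (ι → K)) := inferInstance
  cases or_iff_not_imp_left.mpr (MulAction.IwasawaStructure.commutator_le (pslIwasawa (F := K) (ι := ι)) M) with
  | inl h =>
    refine Or.inl (M.eq_bot_iff_forall.mpr fun m hm => ?_)
    apply hfaith.eq_of_smul_eq_smul
    intro x
    rw [one_smul]
    exact Set.eq_univ_iff_forall.mp h x ⟨m, hm⟩
  | inr h => exact Or.inr h

end Iwasawa

section Fix

variable {n : ℕ} {F K : Type*} [Field F] [Fintype F] [Field K] [Fintype K]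

local notation "Pn" => Matrix.ProjectiveSpecialLinearGroup (Fin n) F
local notation "Pk" => Matrix.ProjectiveSpecialLinearGroup (Fin n) K
local notation "tv" => Matrix.SpecialLinearGroup.transvection

variable {j : K →+* F} {σ : F ≃+* F}

/-- Fixed points lift to `GL` over the fixed field. -/
theorem exists_lift (hfix : ∀ k, σ (j k) = j k) (hsurj : ∀ x, σ x = x → ∃ k, j k = x) (hn : 2 ≤ n)
    (y : Pn) (hy : fieldP σ y = y) :
    ∃ (s : Matrix.SpecialLinearGroup (Fin n) F) (m : GL (Fin n) K) (a : F), a ≠ 0 ∧ mkP s = y ∧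
      (m : Matrix (Fin n) (Fin n) K).map j = a • (s : Matrix (Fin n) (Fin n) F) ∧
      (conjP (JG n j m) : MulAut Pn) = MulAut.conj y := by
  obtain ⟨s, rfl⟩ := mkP_surjective y
  have h1 : (fieldP σ * conjP (Matrix.SpecialLinearGroup.toGL s) : MulAut Pn) = conjP (Matrix.SpecialLinearGroup.toGL s) * fieldP σ := by
    rw [← conj_mk_eq_conjP, aut_mul_conj, hy]
  obtain ⟨a, ha, hfixa⟩ := exists_fixed_of_comm_GL hn σ _ h1
  obtain ⟨m, hm⟩ := exists_JG j (sG n (Units.mk0 a ha) * Matrix.SpecialLinearGroup.toGL s) (by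
    intro k l
    apply hsurj
    have h3 := congrArg (fun w : GL (Fin n) F => (w : Matrix (Fin n) (Fin n) F) k l) hfixa
    exact h3)
  refine ⟨s, m, a, ha, rfl, ?_, ?_⟩
  · rw [← coe_JG, hm, Units.val_mul, coe_sG]
    ext k l
    simp [Matrix.mul_apply, Matrix.scalar_apply, Matrix.diagonal_apply, Finset.sum_ite_eq]
  · rw [hm, conjP_mul, conjP_sG, one_mul, conj_mk_eq_conjP]

/-- An explicit element of order `p` when `K` contains a `p`-th root of unity. -/
theorem exists_order_diag {p : ℕ} [hp : Fact p.Prime] (hn : 3 ≤ n) {ζ : Kˣ} (hζ : orderOf ζ = p) :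
    ∃ y₀ : Pk, orderOf (jP j y₀) = p := by
  haveI : NeZero n := ⟨by omega⟩
  set i₀ : Fin n := ⟨0, by omega⟩
  set i₁ : Fin n := ⟨1, by omega⟩
  set i₂ : Fin n := ⟨2, by omega⟩
  have h01 : i₀ ≠ i₁ := by simp [i₀, i₁, Fin.ext_iff]
  have h02 : i₂ ≠ i₀ := by simp [i₀, i₂, Fin.ext_iff]
  have h12 : i₂ ≠ i₁ := by simp [i₁, i₂, Fin.ext_iff]
  set d : Fin n → K := fun i => (if i = i₀ then (ζ : K) else 1) * (if i = i₁ then ((ζ⁻¹ : Kˣ) : K) else 1) with hd
  have hdet : (Matrix.diagonal d).det = 1 := by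
    rw [Matrix.det_diagonal, hd, Finset.prod_mul_distrib, Finset.prod_ite_eq', Finset.prod_ite_eq']
    simp
  set s₀ : Matrix.SpecialLinearGroup (Fin n) K := ⟨Matrix.diagonal d, hdet⟩ with hs₀
  refine ⟨mkP s₀, order_jP j s₀ ?_ ?_⟩
  · rintro ⟨r, hr⟩
    have h1 := congrFun (congrFun hr i₀) i₀
    have h2 := congrFun (congrFun hr i₂) i₂
    have hz : (ζ : K) ≠ 1 := by
      intro h
      have : ζ = 1 := Units.ext h
      rw [this, orderOf_one] at hζ
      exact hp.out.one_lt.ne hζ
    simp [hs₀, hd, h01, h02, h12, Matrix.diagonal_apply] at h1 h2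
    apply hz
    apply j.injective
    rw [map_one, h1, h2]
  · refine ⟨1, ?_⟩
    have h1 : ((s₀ ^ p : Matrix.SpecialLinearGroup (Fin n) K) : Matrix (Fin n) (Fin n) K) = 1 := by
      rw [Matrix.SpecialLinearGroup.coe_pow, hs₀]
      change (Matrix.diagonal d) ^ p = 1
      rw [Matrix.diagonal_pow, ← Matrix.diagonal_one]
      congr 1
      funext i
      have h2 : (ζ : K) ^ p = 1 := by
        rw [← Units.val_pow_eq_pow_val, ← hζ, pow_orderOf_eq_one, Units.val_one]
      have h3 : (((ζ⁻¹ : Kˣ)) : K) ^ p = 1 := by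
        rw [← Units.val_pow_eq_pow_val, inv_pow, ← hζ, pow_orderOf_eq_one, inv_one, Units.val_one]
      simp only [Pi.pow_apply, hd, mul_pow]
      split_ifs <;> simp [h2, h3]
    rw [h1, one_smul]
    ext a b
    by_cases h : a = b
    · subst h
      simp
    · simp [h]

/-- An explicit involution when `n = 2`. -/
theorem exists_order_two {p : ℕ} [hp : Fact p.Prime] (hn : n = 2) (hp2 : p = 2) :
    ∃ y₀ : Pk, orderOf (jP j y₀) = p := by
  subst hn hp2
  set s₀ : Matrix.SpecialLinearGroup (Fin 2) K := ⟨!![0, 1; -1, 0], by simp [Matrix.det_fin_two]⟩ with hs₀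
  refine ⟨mkP s₀, order_jP j s₀ ?_ ?_⟩
  · rintro ⟨r, hr⟩
    have h1 := congrFun (congrFun hr 0) 1
    simp [hs₀] at h1
  · refine ⟨-1, ?_⟩
    rw [Matrix.SpecialLinearGroup.coe_pow, hs₀]
    change ((!![0, 1; -1, 0] : Matrix (Fin 2) (Fin 2) K) ^ 2).map j = _
    ext a b
    fin_cases a <;> fin_cases b <;> simp [pow_two, Matrix.mul_apply, Fin.sum_univ_two]

/-- An element of order `p` in the image of `PSL_n(K)`. -/
theorem exists_order {p : ℕ} [hp : Fact p.Prime] (hfix : ∀ k, σ (j k) = j k) (hsurj : ∀ x, σ x = x → ∃ k, j k = x) (hn : 2 ≤ n)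
    (hdvd : p ∣ Nat.card (MonoidHom.eqLocus (fieldP σ : MulAut Pn).toMonoidHom (MonoidHom.id Pn))) :
    ∃ y₀ : Pk, orderOf (jP j y₀) = p := by
  classical
  haveI : NeZero n := ⟨by omega⟩
  obtain ⟨x, hx⟩ := exists_prime_orderOf_dvd_card' p hdvd
  have hy : fieldP σ x.1 = x.1 := x.2
  have hyo : orderOf x.1 = p := by
    rw [Subgroup.orderOf_coe, hx]
  obtain ⟨s, m, a, ha, hs, hm, -⟩ := exists_lift hfix hsurj hn x.1 hy
  by_cases hb : ∃ b : Kˣ, b ^ n = Matrix.GeneralLinearGroup.det m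
  · obtain ⟨b, hb⟩ := hb
    have hdet : (((b⁻¹ : Kˣ) : K) • (m : Matrix (Fin n) (Fin n) K)).det = 1 := by
      rw [Matrix.det_smul, Fintype.card_fin]
      have h1 := congrArg (fun u : Kˣ => (u : K)) hb
      simp only [Units.val_pow_eq_pow_val] at h1
      have h2 : (m : Matrix (Fin n) (Fin n) K).det = ((Matrix.GeneralLinearGroup.det m : Kˣ) : K) := rfl
      rw [h2, ← h1, ← mul_pow, Units.inv_mul, one_pow]
    refine ⟨mkP ⟨_, hdet⟩, ?_⟩
    have h1 : jP j (mkP (⟨_, hdet⟩ : Matrix.SpecialLinearGroup (Fin n) K)) = x.1 := by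
      refine (jP_mk j _).trans ?_
      rw [← hs]
      symm
      apply mkP_eq_iff.2
      refine ⟨j ((b⁻¹ : Kˣ) : K) * a, ?_⟩
      change (((b⁻¹ : Kˣ) : K) • (m : Matrix (Fin n) (Fin n) K)).map j = _
      rw [mul_smul, ← hm]
      ext k l
      simp
    rw [h1, hyo]
  · -- the determinant is not an `n`-th power
    have hsp : ∃ r : F, ((s ^ p : Matrix.SpecialLinearGroup (Fin n) F) : Matrix (Fin n) (Fin n) F) = r • 1 := by
      apply mkP_eq_one_iff.1
      rw [map_pow, hs, ← hyo, pow_orderOf_eq_one]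
    obtain ⟨r, hr⟩ := hsp
    have hmp : ((m : Matrix (Fin n) (Fin n) K) ^ p).map j = (a ^ p * r) • 1 := by
      rw [Matrix.map_pow, hm, smul_pow, ← Matrix.SpecialLinearGroup.coe_pow, hr, smul_smul]
    have hi₀ : (0 : Fin n) = (0 : Fin n) := rfl
    set c₀ : K := ((m : Matrix (Fin n) (Fin n) K) ^ p) 0 0 with hc₀
    have hjc : j c₀ = a ^ p * r := by
      have h1 := congrFun (congrFun hmp 0) 0
      simpa using h1
    have hmp2 : (m : Matrix (Fin n) (Fin n) K) ^ p = c₀ • 1 := by
      ext k l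
      apply j.injective
      have h1 := congrFun (congrFun hmp k) l
      by_cases hkl : k = l
      · subst hkl
        simpa [hjc] using h1
      · simpa [hkl] using h1
    have hc0 : c₀ ≠ 0 := by
      intro h0
      rw [h0, zero_smul] at hmp2
      have h1 := m.isUnit.pow p
      rw [← Units.val_pow_eq_pow_val] at hmp2
      exact ((m ^ p).ne_zero) hmp2
    have hdp : (Matrix.GeneralLinearGroup.det m) ^ p = (Units.mk0 c₀ hc0) ^ n := by
      apply Units.ext
      rw [Units.val_pow_eq_pow_val, Units.val_pow_eq_pow_val, Units.val_mk0]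
      change ((m : Matrix (Fin n) (Fin n) K).det) ^ p = _
      rw [← Matrix.det_pow, hmp2, Matrix.det_smul, Fintype.card_fin, Matrix.det_one, mul_one]
    obtain ⟨hpn, hpK⟩ := dvd_of_not_pow hp.out hdp hb
    by_cases h3 : 3 ≤ n
    · obtain ⟨ζ, hζ⟩ := exists_prime_orderOf_dvd_card' p hpK
      exact exists_order_diag h3 hζ
    · have h2 : n = 2 := by omega
      subst h2
      have hp2 : p = 2 := (Nat.prime_dvd_prime_iff_eq hp.out Nat.prime_two).1 hpn
      exact exists_order_two rfl hp2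

/-- The commutator element in `SL_2`. -/
theorem comm_two_mem : ∃ c : Matrix.SpecialLinearGroup (Fin 2) K,
    ((c : Matrix (Fin 2) (Fin 2) K) = !![3, -1; 1, 0]) ∧
      mkP c ∈ commutator (Matrix.ProjectiveSpecialLinearGroup (Fin 2) K) := by
  set A : Matrix.SpecialLinearGroup (Fin 2) K := ⟨!![1, 1; 0, 1], by simp [Matrix.det_fin_two]⟩ with hA
  set B : Matrix.SpecialLinearGroup (Fin 2) K := ⟨!![1, 0; 1, 1], by simp [Matrix.det_fin_two]⟩ with hB
  set c : Matrix.SpecialLinearGroup (Fin 2) K := ⟨!![3, -1; 1, 0], by simp [Matrix.det_fin_two]⟩ with hc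
  have h1 : A * B = c * (B * A) := by
    apply Subtype.ext
    change !![1, 1; 0, 1] * !![1, 0; 1, 1] = !![3, -1; 1, 0] * (!![1, 0; 1, 1] * !![1, 1; 0, 1])
    ext a b
    fin_cases a <;> fin_cases b <;> simp [Matrix.mul_apply, Fin.sum_univ_two] <;> norm_num
  refine ⟨c, rfl, ?_⟩
  have h2 : c = ⁅A, B⁆ := by
    rw [commutatorElement_def, eq_comm, mul_inv_eq_iff_eq_mul, mul_inv_eq_iff_eq_mul, h1]
    group
  rw [h2, map_commutatorElement]
  exact Subgroup.commutator_mem_commutator (Subgroup.mem_top _) (Subgroup.mem_top _)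

theorem p_dvd_GL {p : ℕ} [hp : Fact p.Prime] {y₀ : Matrix.ProjectiveSpecialLinearGroup (Fin 2) K} {j : K →+* F}
    (h : orderOf (jP j y₀) = p) : p ∣ Nat.card (GL (Fin 2) K) := by
  have h1 : p ∣ orderOf y₀ := h ▸ orderOf_map_dvd _ _
  have h2 : p ∣ Nat.card (Matrix.ProjectiveSpecialLinearGroup (Fin 2) K) := h1.trans (orderOf_dvd_natCard _)
  have h3 : Nat.card (Matrix.ProjectiveSpecialLinearGroup (Fin 2) K) ∣ Nat.card (Matrix.SpecialLinearGroup (Fin 2) K) :=
    Subgroup.card_quotient_dvd_card _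
  have h4 : Nat.card (Matrix.SpecialLinearGroup (Fin 2) K) ∣ Nat.card (GL (Fin 2) K) :=
    Subgroup.card_dvd_of_injective _ Matrix.SpecialLinearGroup.toGL_injective
  exact (h2.trans h3).trans h4

/-- The key element of `PSL_n(K)`: it has order `p` (in the image) and lies in every nontrivial normal subgroup. -/
theorem exists_key {r p : ℕ} [hr : Fact r.Prime] [CharP F r] [hp : Fact p.Prime] (hpr : p ≠ r)
    (hfix : ∀ k, σ (j k) = j k) (hsurj : ∀ x, σ x = x → ∃ k, j k = x) (hn : 2 ≤ n)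
    (hdvd : p ∣ Nat.card (MonoidHom.eqLocus (fieldP σ : MulAut Pn).toMonoidHom (MonoidHom.id Pn))) :
    ∃ y : Pk, orderOf (jP j y) = p ∧ ∀ M : Subgroup Pk, M.Normal → M = ⊥ ∨ y ∈ M := by
  classical
  obtain ⟨y₀, hy₀⟩ := exists_order hfix hsurj hn hdvd (j := j)
  by_cases hs : 3 ≤ n ∨ 4 ≤ Nat.card K
  · have hsimple : IsSimpleGroup Pk := by
      by_cases h3 : 3 ≤ n
      · exact Cfsg.Agent.Lib.Classical.Lin.Transvections.psl_isSimpleGroup (by simpa using h3)
      · have h2 : n = 2 := by omega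
        subst h2
        exact Matrix.ProjectiveSpecialLinearGroup.rank_two_simple (hs.resolve_left h3)
    refine ⟨y₀, hy₀, fun M hM => ?_⟩
    rcases hM.eq_bot_or_eq_top with h | h
    · exact Or.inl h
    · right
      rw [h]
      exact Subgroup.mem_top _
  · push Not at hs
    obtain ⟨h3, h4⟩ := hs
    have h2 : n = 2 := by omega
    subst h2
    obtain ⟨c, hc, hcm⟩ := comm_two_mem (K := K)
    have hdiag : ∀ M : Subgroup (Matrix.ProjectiveSpecialLinearGroup (Fin 2) K), M.Normal → M = ⊥ ∨ mkP c ∈ M := by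
      intro M hM
      rcases normal_dichotomy M with h | h
      · exact Or.inl h
      · exact Or.inr (h hcm)
    refine ⟨mkP c, ?_, hdiag⟩
    have hnr : ((r : ℕ) : K) = 0 := by
      apply j.injective
      rw [map_natCast, CharP.cast_eq_zero, map_zero]
    have hGL := p_dvd_GL hy₀
    rw [Nat.card_congr (Equiv.refl _), Matrix.card_GL_field, Fin.prod_univ_two] at hGL
    have hq : Nat.card K = Fintype.card K := Nat.card_eq_fintype_card
    rw [hq] at h4
    have hq1 : 1 < Fintype.card K := Fintype.one_lt_card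
    have hKc : ((Fintype.card K : ℕ) : K) = 0 := FiniteField.cast_card_eq_zero K
    have hnsc : ¬ ∃ r : F, ((c : Matrix (Fin 2) (Fin 2) K).map j) = r • 1 := by
      rintro ⟨r', hr'⟩
      have h1 := congrFun (congrFun hr' 1) 0
      rw [hc] at h1
      simp at h1
    have hcases : Fintype.card K = 2 ∨ Fintype.card K = 3 := by omega
    rcases hcases with h5 | h5
    · -- `|K| = 2`
      rw [h5] at hKc hGL
      have h20 : (2 : K) = 0 := by exact_mod_cast hKc
      have hr2 : r = 2 := by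
        have h6 : r ∣ 2 := by
          rw [← CharP.cast_eq_zero_iff F r 2, Nat.cast_ofNat, ← map_ofNat j 2, h20, map_zero]
        exact (Nat.prime_dvd_prime_iff_eq hr.out Nat.prime_two).1 h6
      have hp3 : p = 3 := by
        norm_num at hGL
        have h6 : p ∣ 2 * 3 := by simpa using hGL
        rcases (Nat.Prime.dvd_mul hp.out).1 h6 with h7 | h7
        · exact absurd ((Nat.prime_dvd_prime_iff_eq hp.out Nat.prime_two).1 h7) (by omega)
        · exact (Nat.prime_dvd_prime_iff_eq hp.out Nat.prime_three).1 h7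
      subst hp3
      refine order_jP j c hnsc ⟨1, ?_⟩
      have h6 : ((c ^ 3 : Matrix.SpecialLinearGroup (Fin 2) K) : Matrix (Fin 2) (Fin 2) K) = 1 := by
        rw [Matrix.SpecialLinearGroup.coe_pow, hc]
        have e1 : ∀ x : K, x + x = 0 := fun x => by linear_combination x * h20
        ext a b
        fin_cases a <;> fin_cases b <;> simp [pow_succ, Matrix.mul_apply, Fin.sum_univ_two]
        all_goals first
          | linear_combination (10 : K) * h20
          | linear_combination (-4 : K) * h20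
          | linear_combination (4 : K) * h20
          | linear_combination (-2 : K) * h20
      rw [h6, one_smul]
      ext a b
      by_cases h : a = b
      · subst h
        simp
      · simp [h]
    · -- `|K| = 3`
      rw [h5] at hKc hGL
      have h20 : (3 : K) = 0 := by exact_mod_cast hKc
      have hr3 : r = 3 := by
        have h6 : r ∣ 3 := by
          rw [← CharP.cast_eq_zero_iff F r 3, Nat.cast_ofNat, ← map_ofNat j 3, h20, map_zero]
        exact (Nat.prime_dvd_prime_iff_eq hr.out Nat.prime_three).1 h6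
      have hp2 : p = 2 := by
        norm_num at hGL
        have h6 : p ∣ 2 ^ 4 * 3 := by simpa using hGL
        rcases (Nat.Prime.dvd_mul hp.out).1 h6 with h7 | h7
        · exact (Nat.prime_dvd_prime_iff_eq hp.out Nat.prime_two).1 (hp.out.dvd_of_dvd_pow h7)
        · exact absurd ((Nat.prime_dvd_prime_iff_eq hp.out Nat.prime_three).1 h7) (by omega)
      subst hp2
      refine order_jP j c hnsc ⟨-1, ?_⟩
      rw [Matrix.SpecialLinearGroup.coe_pow, hc]
      ext a b
      fin_cases a <;> fin_cases b <;> simp [pow_two, Matrix.mul_apply, Fin.sum_univ_two, h20]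

theorem map_tv {i l : Fin n} (hil : i ≠ l) (c : K) :
    Matrix.SpecialLinearGroup.map j (tv hil c) = tv hil (j c) := by
  apply Subtype.ext
  change (((tv hil c : Matrix.SpecialLinearGroup (Fin n) K) : Matrix (Fin n) (Fin n) K)).map j = _
  rw [Matrix.SpecialLinearGroup.transvection_coe, Matrix.SpecialLinearGroup.transvection_coe]
  ext a b
  by_cases h1 : a = b
  · subst h1
    by_cases h2 : a = i ∧ a = l
    · exact absurd (h2.1.symm.trans h2.2) hil
    · simp [Matrix.single_apply, h2]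
      split_ifs <;> simp
  · simp [Matrix.single_apply, Matrix.one_apply, h1]
    split_ifs <;> simp

theorem conj_tv_eq [NeZero n] (A : GL (Fin n) F) {i l : Fin n} (hil : i ≠ l) (c c' : F)
    (h : conjP A (mkP (tv hil c)) = mkP (tv hil c')) :
    c • ((A : Matrix (Fin n) (Fin n) F) * Matrix.single i l 1 * ((A⁻¹ : GL (Fin n) F) : Matrix (Fin n) (Fin n) F)) =
      c' • Matrix.single i l 1 := by
  rw [conjP, liftP_mk] at h
  obtain ⟨r, hr⟩ := mkP_eq_iff.mp h.symm
  rw [coe_conjSL_tv] at hr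
  have e : ((tv hil c' : Matrix.SpecialLinearGroup (Fin n) F) : Matrix (Fin n) (Fin n) F) = 1 + c' • Matrix.single i l 1 := by
    rw [Matrix.SpecialLinearGroup.transvection_coe]
    congr 1
    ext a b
    simp [Matrix.single_apply]
  rw [e] at hr
  refine (one_add_eq_smul i (conj_single_sq A hil _) ?_ ?_ hr).2
  · rw [Matrix.smul_mul, Matrix.mul_smul, single_sq hil]
    simp
  · simp [Matrix.single_apply, hil.symm]

/-- An automorphism of order prime to `p` fixing the rational transvections is trivial. -/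
theorem eq_one_of_fix_tv {r f p : ℕ} [hr : Fact r.Prime] [CharP F r] (hF : Fintype.card F = r ^ f) (hf : 1 ≤ f) (hn : 2 ≤ n)
    (hσ : orderOf σ = p) (hp : p.Prime) (hsurj : ∀ x, σ x = x → ∃ k, j k = x) (α : MulAut Pn) (hco : (orderOf α).Coprime p)
    (hα : ∀ (i l : Fin n) (hil : i ≠ l) (c : K), α (mkP (tv hil (j c))) = mkP (tv hil (j c))) : α = 1 := by
  classical
  haveI : NeZero n := ⟨by omega⟩
  obtain ⟨A, τ, h | ⟨h3, h⟩⟩ := exists_std' hF hf hn α
  · subst h
    have h1 : ∀ (i l : Fin n) (hil : i ≠ l) (c : K),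
        (τ (j c)) • ((A : Matrix (Fin n) (Fin n) F) * Matrix.single i l 1 * ((A⁻¹ : GL (Fin n) F) : Matrix (Fin n) (Fin n) F)) =
          (j c) • Matrix.single i l 1 := by
      intro i l hil c
      have h2 := hα i l hil c
      rw [MulAut.mul_apply, fieldP_tv] at h2
      exact conj_tv_eq A hil _ _ h2
    have h2 : ∀ (i l : Fin n) (hil : i ≠ l),
        (A : Matrix (Fin n) (Fin n) F) * Matrix.single i l 1 * ((A⁻¹ : GL (Fin n) F) : Matrix (Fin n) (Fin n) F) = Matrix.single i l 1 := by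
      intro i l hil
      have h3 := h1 i l hil 1
      simpa using h3
    have hA : conjP A = (1 : MulAut Pn) := by
      apply conjP_eq_one_of_center
      apply mem_center_of_comm_single hn
      intro i l hil
      have h3 := h2 i l hil
      have h4 : ((A⁻¹ : GL (Fin n) F) : Matrix (Fin n) (Fin n) F) * (A : Matrix (Fin n) (Fin n) F) = 1 := by
        rw [← Units.val_mul]; simp
      calc _ = (A : Matrix (Fin n) (Fin n) F) * Matrix.single i l 1 * (((A⁻¹ : GL (Fin n) F) : Matrix (Fin n) (Fin n) F) * (A : Matrix (Fin n) (Fin n) F)) := by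
            rw [h4, Matrix.mul_one]
        _ = _ := by rw [← Matrix.mul_assoc, h3]
    rw [hA, one_mul] at hco ⊢
    have hτ : ∀ c, σ c = c → τ c = c := by
      intro c hc
      obtain ⟨c', rfl⟩ := hsurj c hc
      obtain ⟨i, l, hil⟩ : ∃ i l : Fin n, i ≠ l := by
        haveI : Nontrivial (Fin n) := Fin.nontrivial_iff_two_le.mpr hn
        exact exists_pair_ne _
      have h3 := h1 i l hil c'
      rw [h2 i l hil] at h3
      have h4 := congrFun (congrFun h3 i) l
      simpa using h4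
    rw [orderOf_fieldP hn] at hco
    have h4 := Cfsg.Agent.Lib.Classical.Symp.Aut.Balance.eq_one_of_fix_fix hF hf σ τ hσ hp hco hτ
    rw [h4, fieldP_one]
  · exfalso
    subst h
    have key : ∀ i l : Fin n, i ≠ l → ∀ a, a ≠ i → (A : Matrix (Fin n) (Fin n) F) a l = 0 := by
      intro i l hil a hai
      have h1 := hα i l hil 1
      rw [map_one, MulAut.mul_apply, MulAut.mul_apply, itP_tv, fieldP_tv, map_neg, map_one] at h1
      rw [conjP, liftP_mk] at h1
      obtain ⟨r', hr'⟩ := mkP_eq_iff.mp h1.symm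
      rw [coe_conjSL_tv] at hr'
      have e : ((tv hil (1 : F) : Matrix.SpecialLinearGroup (Fin n) F) : Matrix (Fin n) (Fin n) F) = 1 + (1 : F) • Matrix.single i l 1 := by
        rw [Matrix.SpecialLinearGroup.transvection_coe]
        congr 1
        ext a b
        simp [Matrix.single_apply]
      rw [e] at hr'
      have h2 := (one_add_eq_smul i (conj_single_sq A hil.symm _) (by
        rw [Matrix.smul_mul, Matrix.mul_smul, single_sq hil]; simp) (by
        simp [Matrix.single_apply, hil.symm]) hr').2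
      have h3 : ((A⁻¹ : GL (Fin n) F) : Matrix (Fin n) (Fin n) F) * (A : Matrix (Fin n) (Fin n) F) = 1 := by
        rw [← Units.val_mul]; simp
      have h4 : (-1 : F) • ((A : Matrix (Fin n) (Fin n) F) * Matrix.single l i 1) =
          ((1 : F) • Matrix.single i l 1) * (A : Matrix (Fin n) (Fin n) F) := by
        rw [← h2, Matrix.smul_mul, Matrix.mul_assoc _ _ (A : Matrix (Fin n) (Fin n) F), h3, Matrix.mul_one]
      have h5 := congrFun (congrFun h4 a) i
      have e1 : ((A : Matrix (Fin n) (Fin n) F) * Matrix.single l i (1 : F) : Matrix (Fin n) (Fin n) F) a i = (A : Matrix (Fin n) (Fin n) F) a l := by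
        simp [Matrix.mul_apply, Matrix.single_apply]
      have e2 : (Matrix.single i l (1 : F) * (A : Matrix (Fin n) (Fin n) F) : Matrix (Fin n) (Fin n) F) a i = 0 := by
        simp [Matrix.mul_apply, Matrix.single_apply, hai.symm]
      rw [Matrix.smul_apply, e1, Matrix.smul_mul, Matrix.smul_apply, e2] at h5
      simpa using h5
    obtain ⟨l⟩ : Nonempty (Fin n) := ⟨⟨0, by omega⟩⟩
    have h3' : ∀ a b : Fin n, ∃ c, c ≠ a ∧ c ≠ b := by
      intro a b
      obtain ⟨c, h1, h2⟩ := Cfsg.Agent.Lib.Classical.Lin.Transvections.exists_third_index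
        (ι := Fin n) (by simpa using h3) a b
      exact ⟨c, h1.symm, h2⟩
    obtain ⟨i, hi, -⟩ := h3' l l
    obtain ⟨i', hi', hii⟩ := h3' l i
    have hzero : ∀ a, (A : Matrix (Fin n) (Fin n) F) a l = 0 := by
      intro a
      by_cases ha : a = i
      · exact key i' l hi' a (by rw [ha]; exact hii.symm)
      · exact key i l hi a ha
    have h4 : ((A⁻¹ : GL (Fin n) F) : Matrix (Fin n) (Fin n) F) * (A : Matrix (Fin n) (Fin n) F) = 1 := by
      rw [← Units.val_mul]; simp
    have h5 := congrFun (congrFun h4 l) l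
    rw [Matrix.mul_apply, Finset.sum_eq_zero (fun a _ => by rw [hzero a, mul_zero]), Matrix.one_apply_eq] at h5
    exact zero_ne_one h5

/-- **Local balance for field automorphisms of `PSL`.** -/
theorem field_bal {r f p : ℕ} [hr : Fact r.Prime] [CharP F r] [hp : Fact p.Prime] (hF : Fintype.card F = r ^ f) (hf : 1 ≤ f) (hn : 2 ≤ n)
    (hσ : orderOf σ = p) (hpr : p ≠ r)
    (hfix : ∀ k, σ (j k) = j k) (hsurj : ∀ x, σ x = x → ∃ k, j k = x)
    (hdvd : p ∣ Nat.card (MonoidHom.eqLocus (fieldP σ : MulAut Pn).toMonoidHom (MonoidHom.id Pn)))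
    (C L : Subgroup (MulAut Pn)) (hC : ∀ β ∈ C, β * fieldP σ = fieldP σ * β)
    (hK : ∀ k ∈ MonoidHom.eqLocus (fieldP σ : MulAut Pn).toMonoidHom (MonoidHom.id Pn), MulAut.conj k ∈ C)
    (hLC : L ≤ C) (hLn : ∀ c ∈ C, ∀ y ∈ L, c * y * c⁻¹ ∈ L) (hco : (Nat.card L).Coprime p) : L = ⊥ := by
  classical
  haveI : NeZero n := ⟨by omega⟩
  haveI : Finite Pn := inferInstance
  have hinj := conj_injective (n := n) (F := F) hn
  set E := MonoidHom.eqLocus (fieldP σ : MulAut Pn).toMonoidHom (MonoidHom.id Pn) with hE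
  have hmemE : ∀ k, k ∈ E ↔ fieldP σ k = k := fun k => Iff.rfl
  have hconj : ∀ (β : MulAut Pn) (k : Pn), β * MulAut.conj k * β⁻¹ = MulAut.conj (β k) := by
    intro β k
    rw [aut_mul_conj, mul_inv_cancel_right]
  obtain ⟨y, hyo, hyn⟩ := exists_key (j := j) (σ := σ) hpr hfix hsurj hn hdvd
  apply Cfsg.Agent.Lib.Classical.Symp.Aut.Balance.abstract_balance p C L (E.map (MulAut.conj : Pn →* MulAut Pn))
    ((jP j).range.map (MulAut.conj : Pn →* MulAut Pn)) hLC hLn ?_ ?_ ?_ ?_ ?_ hco ?_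
  · rintro _ ⟨k, hk, rfl⟩
    exact hK k hk
  · rintro c hc _ ⟨k, hk, rfl⟩
    refine ⟨c k, ?_, (hconj c k).symm⟩
    rw [SetLike.mem_coe, hmemE]
    have h1 := DFunLike.congr_fun (hC c hc) k
    simp only [MulAut.mul_apply] at h1
    rw [← h1, (hmemE k).1 hk]
  · rintro _ ⟨_, ⟨y₁, rfl⟩, rfl⟩
    refine ⟨jP j y₁, ?_, rfl⟩
    rw [SetLike.mem_coe, hmemE]
    obtain ⟨s, rfl⟩ := mkP_surjective y₁
    refine Eq.trans ?_ (jP_mk j s).symm
    rw [jP_mk]
    change mkP (fieldSL σ _) = _
    congr 1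
    apply Subtype.ext
    ext a b
    exact hfix _
  · rintro _ ⟨k, hk, rfl⟩ _ ⟨_, ⟨y₁, rfl⟩, rfl⟩
    obtain ⟨s, m, a, ha, hs, hm, hconj'⟩ := exists_lift hfix hsurj hn k ((hmemE k).1 hk)
    obtain ⟨s', rfl⟩ := mkP_surjective y₁
    refine ⟨jP j (mkP (conjSL m s')), ⟨_, rfl⟩, ?_⟩
    change MulAut.conj _ = MulAut.conj k * MulAut.conj _ * (MulAut.conj k)⁻¹
    rw [hconj]
    congr 1
    rw [← hconj', jP_mk, jP_mk, conjP, liftP_mk]
    congr 1
    apply Subtype.ext
    rw [conjSL_coe, coe_map, coe_map, conjSL_coe, coe_JG]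
    rw [Matrix.map_mul, Matrix.map_mul]
    congr 1
  · intro N hNT hNn hNco
    set Ψ : Pk →* MulAut Pn := (MulAut.conj : Pn →* MulAut Pn).comp (jP j) with hΨ
    have hr : Ψ.range = ((jP j).range.map (MulAut.conj : Pn →* MulAut Pn)) := by
      rw [hΨ, MonoidHom.range_comp]
    refine bot_of_key Ψ N (by rw [hr]; exact hNT) (by rw [hr]; exact hNn) hp.out y hyn ?_ hNco
    rw [hΨ, MonoidHom.comp_apply, orderOf_injective _ hinj, hyo]
  · intro α hα hcomm
    apply eq_one_of_fix_tv hF hf hn hσ hp.out hsurj α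
    · exact Nat.Coprime.coprime_dvd_left (by
        rw [← Subgroup.orderOf_mk α hα]
        exact orderOf_dvd_natCard _) hco
    · intro i l hil c
      have h1 := hcomm (MulAut.conj (jP j (mkP (tv hil c)))) ⟨_, ⟨_, rfl⟩, rfl⟩
      rw [aut_mul_conj] at h1
      have h2 := mul_right_cancel h1
      have h3 := hinj h2
      rw [jP_mk, map_tv] at h3
      exact h3

end Fix

end Cfsg.Agent.Lib.Classical.PslBal.Fld
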