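import Mathlib
import Cfsg.Agent.Lib.Classical.PslBal.Fld
import Cfsg.Agent.Lib.Classical.Herm.Simple

/-!
# Local balance for `PSL`: graph-field involutions
-/

set_option autoImplicit false
set_option linter.unusedSectionVars false
set_option linter.unusedVariables false
set_option linter.unusedSimpArgs false
set_option linter.style.haveILetI false

open scoped Matrix MatrixGroups
open Cfsg
open Cfsg.Agent.Lib.Classical.Herm.Descent Cfsg.Agent.Lib.Classical.Herm.GLDescent
open Cfsg.Agent.Lib.Classical.Herm.PSLGraphField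
open Cfsg.Agent.Lib.Linalg.AutPSLBasic Cfsg.Agent.Lib.Linalg.AutPSLStd Cfsg.Agent.Lib.Linalg.AutPSLCount
open Cfsg.Agent.Lib.Linalg.AutPSLMain
open Cfsg.Agent.Lib.Classical.PslBal.Fld

namespace Cfsg.Agent.Lib.Classical.PslBal.Uni

variable {n : ℕ} {F : Type*} [Field F] [Fintype F] {q : ℕ}

local notation "Pn" => Matrix.ProjectiveSpecialLinearGroup (Fin n) F
local notation "⟪" x ", " y "⟫" => hermForm _ _ q x y

attribute [local instance] finite_ringAut

/-- Removing the identity from a projective identity between unipotent matrices. -/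
theorem conj_S_eq [NeZero n] (A : GL (Fin n) F) (τ : F ≃+* F) {s S : Matrix (Fin n) (Fin n) F} {lam : F} (hs : s = 1 + S)
    (hSS : S * S = 0) (i : Fin n) (hi : S i i = 0)
    (h : (A : Matrix (Fin n) (Fin n) F) * s.map τ * ((A⁻¹ : GL (Fin n) F) : Matrix (Fin n) (Fin n) F) = lam • s) :
    (A : Matrix (Fin n) (Fin n) F) * S.map τ = S * (A : Matrix (Fin n) (Fin n) F) := by
  have hAA : (A : Matrix (Fin n) (Fin n) F) * ((A⁻¹ : GL (Fin n) F) : Matrix (Fin n) (Fin n) F) = 1 := by
    rw [← Units.val_mul]; simp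
  have hAA' : ((A⁻¹ : GL (Fin n) F) : Matrix (Fin n) (Fin n) F) * (A : Matrix (Fin n) (Fin n) F) = 1 := by
    rw [← Units.val_mul]; simp
  have hmap : s.map τ = 1 + S.map τ := by
    rw [hs]
    ext a b
    by_cases hab : a = b
    · subst hab
      simp
    · simp [hab]
  set M := (A : Matrix (Fin n) (Fin n) F) * S.map τ * ((A⁻¹ : GL (Fin n) F) : Matrix (Fin n) (Fin n) F) with hM
  have h1 : 1 + M = lam • (1 + S) := by
    rw [← hs, ← h, hmap, Matrix.mul_add, Matrix.add_mul, Matrix.mul_one, hAA]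
  have hS' : S.map τ * S.map τ = 0 := by
    rw [← Matrix.map_mul, hSS]
    ext a b
    simp
  have hMM : M * M = 0 := by
    rw [hM]
    calc _ = (A : Matrix (Fin n) (Fin n) F) * S.map τ * (((A⁻¹ : GL (Fin n) F) : Matrix (Fin n) (Fin n) F) * (A : Matrix (Fin n) (Fin n) F)) * S.map τ * ((A⁻¹ : GL (Fin n) F) : Matrix (Fin n) (Fin n) F) := by
          simp only [Matrix.mul_assoc]
      _ = (A : Matrix (Fin n) (Fin n) F) * (S.map τ * S.map τ) * ((A⁻¹ : GL (Fin n) F) : Matrix (Fin n) (Fin n) F) := by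
          rw [hAA', Matrix.mul_one, Matrix.mul_assoc (A : Matrix (Fin n) (Fin n) F)]
      _ = 0 := by rw [hS']; simp
  have h2 := (one_add_eq_smul i hMM hSS hi h1).2
  have h3 : S * (A : Matrix (Fin n) (Fin n) F) = M * (A : Matrix (Fin n) (Fin n) F) := by rw [h2]
  rw [h3, hM, Matrix.mul_assoc _ _ (A : Matrix (Fin n) (Fin n) F), hAA', Matrix.mul_one]

variable (hF : Fintype.card F = q ^ 2)

include hF

/-- The isotropic vector `e_i + x e_l`. -/
theorem iso_vec {i l : Fin n} (hil : i ≠ l) {x : F} (hx : x ^ (q + 1) = -1) :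
    ⟪(fun a => (if a = i then (1 : F) else 0) + (if a = l then x else 0)), (fun a => (if a = i then (1 : F) else 0) + (if a = l then x else 0))⟫ = 0 := by
  rw [Cfsg.Agent.Lib.Classical.Herm.Basic.hermForm_apply]
  have h1 : ∀ a : Fin n, ((if a = i then (1 : F) else 0) + (if a = l then x else 0)) * ((if a = i then (1 : F) else 0) + (if a = l then x else 0)) ^ q =
      (if a = i then (1 : F) else 0) + (if a = l then x ^ (q + 1) else 0) := by
    intro a
    have hq0 : q ≠ 0 := by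
      rintro rfl
      have h2 := Fintype.one_lt_card (α := F)
      rw [hF] at h2
      simp at h2
    by_cases h2 : a = i
    · subst h2
      simp [hil, hq0]
    · by_cases h3 : a = l
      · subst h3
        simp [h2, pow_succ, mul_comm, hq0]
      · simp [h2, h3, hq0]
  simp only [h1]
  rw [Finset.sum_add_distrib, Finset.sum_ite_eq', Finset.sum_ite_eq', hx]
  simp

/-- The image of an isotropic vector under a semilinear map fixing the transvection. -/
theorem col_eq [NeZero n] (A : GL (Fin n) F) (τ : F ≃+* F)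
    (h : ∀ s : SU n F q, (conjP A * fieldP τ : MulAut Pn) (mkP s.1) = mkP s.1)
    {i l k : Fin n} (hil : i ≠ l) (hk : k ≠ i ∧ k ≠ l) {x : F} (hx : x ^ (q + 1) = -1) :
    ∃ κ : F, ∀ a, (A : Matrix (Fin n) (Fin n) F) a i + τ x * (A : Matrix (Fin n) (Fin n) F) a l =
      κ * ((if a = i then (1 : F) else 0) + (if a = l then x else 0)) := by
  classical
  set v : Fin n → F := fun a => (if a = i then (1 : F) else 0) + (if a = l then x else 0) with hv
  have hvv : ⟪v, v⟫ = 0 := iso_vec hF hil hx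
  -- a trace zero element
  obtain ⟨y, hy⟩ : ∃ y : F, y ^ q ≠ y := by
    by_contra hcon
    push Not at hcon
    apply sigE_ne_one hF
    ext z
    exact hcon z
  have hqq : ∀ z : F, (z ^ q) ^ q = z := by
    intro z
    rw [← pow_mul, ← pow_two, ← hF, FiniteField.pow_card]
  set c := y - y ^ q with hc
  have hc0 : c ≠ 0 := fun h0 => hy (sub_eq_zero.1 h0).symm
  have hcq : c + c ^ q = 0 := by
    have : (y - y ^ q) ^ q = y ^ q - y := by
      have h1 : (y - y ^ q) ^ q = sigE hF (y - y ^ q) := (sigE_apply hF _).symm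
      rw [h1, map_sub, sigE_apply, sigE_apply, hqq]
    rw [hc, this]
    ring
  set s := Cfsg.Agent.Lib.Classical.Herm.Tv.tv hF hvv hcq with hs
  set S : Matrix (Fin n) (Fin n) F := c • Matrix.vecMulVec v (fun a => v a ^ q) with hS
  have hsS : ((s.1 : Matrix.SpecialLinearGroup (Fin n) F) : Matrix (Fin n) (Fin n) F) = 1 + S := rfl
  have hSapply : ∀ a b, S a b = c * (v a * v b ^ q) := by
    intro a b
    simp [hS, Matrix.vecMulVec_apply]
  have hSS : S * S = 0 := by
    ext a b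
    rw [Matrix.mul_apply, Matrix.zero_apply]
    simp only [hSapply]
    have h1 : ∀ d, c * (v a * v d ^ q) * (c * (v d * v b ^ q)) = (c * v a * c * v b ^ q) * (v d * v d ^ q) := by
      intro d
      ring
    simp only [h1]
    rw [← Finset.mul_sum]
    have h2 : ∑ d, v d * v d ^ q = 0 := hvv
    rw [h2, mul_zero]
  have hSk : S k k = 0 := by
    rw [hSapply]
    simp [hv, hk.1, hk.2]
  have hrel := h s
  rw [MulAut.mul_apply] at hrel
  change (conjP A) (mkP (fieldSL τ s.1)) = mkP s.1 at hrel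
  rw [conjP, liftP_mk] at hrel
  obtain ⟨lam, hlam⟩ := mkP_eq_iff.1 hrel.symm
  rw [conjSL_coe, fieldSL_coe] at hlam
  have h1 := conj_S_eq A τ hsS hSS k hSk hlam
  have hτc : τ c ≠ 0 := (map_ne_zero τ).2 hc0
  have hvi : v i = 1 := by simp [hv, hil]
  refine ⟨c * (∑ b, v b ^ q * (A : Matrix (Fin n) (Fin n) F) b i) / τ c, ?_⟩
  intro a
  have h2 := congrFun (congrFun h1 a) i
  rw [Matrix.mul_apply, Matrix.mul_apply] at h2
  have h3 : ∀ b, (A : Matrix (Fin n) (Fin n) F) a b * (S.map τ) b i = τ c * (τ (v b) * (A : Matrix (Fin n) (Fin n) F) a b) := by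
    intro b
    rw [Matrix.map_apply, hSapply, hvi]
    simp
    ring
  have h4 : ∀ b, S a b * (A : Matrix (Fin n) (Fin n) F) b i = (c * v a) * (v b ^ q * (A : Matrix (Fin n) (Fin n) F) b i) := by
    intro b
    rw [hSapply]
    ring
  simp only [h3, h4] at h2
  rw [← Finset.mul_sum, ← Finset.mul_sum] at h2
  have h5 : ∑ b, τ (v b) * (A : Matrix (Fin n) (Fin n) F) a b = (A : Matrix (Fin n) (Fin n) F) a i + τ x * (A : Matrix (Fin n) (Fin n) F) a l := by
    have h6 : ∀ b, τ (v b) * (A : Matrix (Fin n) (Fin n) F) a b =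
        (if b = i then (A : Matrix (Fin n) (Fin n) F) a b else 0) + (if b = l then τ x * (A : Matrix (Fin n) (Fin n) F) a b else 0) := by
      intro b
      by_cases hb1 : b = i
      · subst hb1
        simp [hv, hil]
      · by_cases hb2 : b = l
        · subst hb2
          simp [hv, hb1]
        · simp [hv, hb1, hb2]
    simp only [h6]
    rw [Finset.sum_add_distrib, Finset.sum_ite_eq', Finset.sum_ite_eq']
    simp
  rw [h5] at h2
  field_simp
  linear_combination h2

/-- A field automorphism fixing the norm one group is trivial. -/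
theorem field_eq_one_of_fix {r f : ℕ} [hr : Fact r.Prime] (hFr : Fintype.card F = r ^ f) (hf : 1 ≤ f) (τ : F ≃+* F)
    (h : ∀ u : F, u ^ (q + 1) = 1 → τ u = u) : τ = 1 := by
  classical
  have hq1 : 1 < q := by
    by_contra hcon
    have h1 := Fintype.one_lt_card (α := F)
    rw [hF] at h1
    have : q = 0 ∨ q = 1 := by omega
    rcases this with rfl | rfl <;> simp at h1
  obtain ⟨g, hg⟩ := IsCyclic.exists_generator (α := Fˣ)
  have hog : orderOf g = (q - 1) * (q + 1) := by
    rw [orderOf_eq_card_of_forall_mem_zpowers hg, Nat.card_eq_fintype_card, Fintype.card_units, hF]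
    obtain ⟨q', rfl⟩ : ∃ q', q = q' + 1 := ⟨q - 1, by omega⟩
    simp only [Nat.add_sub_cancel]
    have : (q' + 1) ^ 2 = q' * (q' + 1 + 1) + 1 := by ring
    omega
  set u₀ := g ^ (q - 1) with hu₀
  have hou : orderOf u₀ = q + 1 := by
    rw [hu₀, orderOf_pow_of_dvd (by omega) (by rw [hog]; exact dvd_mul_right _ _), hog]
    exact Nat.mul_div_cancel_left _ (by omega)
  have hfixu : u₀ ∈ UF τ := by
    rw [mem_UF]
    apply h
    rw [← Units.val_pow_eq_pow_val, ← hou, pow_orderOf_eq_one, Units.val_one]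
  have h1 : q + 1 ∣ Nat.card (UF τ) := by
    rw [← hou]
    exact Subgroup.orderOf_dvd_natCard _ hfixu
  rw [card_UF] at h1
  obtain ⟨hd, hc1, hc2⟩ := fix_card hFr hf τ
  set K := Nat.card (fixF τ) with hK
  have hK1 : 1 < K := Finite.one_lt_card
  have h3 : q + 1 ≤ K - 1 := Nat.le_of_dvd (by omega) h1
  rw [← hc1, ← hFr, hF] at hc2
  by_contra hne
  have ht : 2 ≤ orderOf τ := by
    have h4 : orderOf τ ≠ 1 := fun h5 => hne (orderOf_eq_one_iff.1 h5)
    have h5 : 0 < orderOf τ := orderOf_pos τ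
    omega
  have h6 : K ^ 2 ≤ K ^ orderOf τ := Nat.pow_le_pow_right (by omega) ht
  rw [← hc2] at h6
  have h7 : K ≤ q := (Nat.pow_le_pow_iff_left (by norm_num)).1 h6
  omega

/-- An automorphism fixing `PSU` is trivial. -/
theorem eq_one_of_fix_su {r f : ℕ} [hr : Fact r.Prime] (hFr : Fintype.card F = r ^ f) (hf : 1 ≤ f) (h2 : (2 : F) ≠ 0) (hn : 3 ≤ n)
    (A : GL (Fin n) F) (τ : F ≃+* F)
    (h : ∀ s : SU n F q, (conjP A * fieldP τ : MulAut Pn) (mkP s.1) = mkP s.1) : (conjP A * fieldP τ : MulAut Pn) = 1 := by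
  classical
  haveI : NeZero n := ⟨by omega⟩
  have hthird : ∀ a b : Fin n, ∃ c, c ≠ a ∧ c ≠ b := by
    intro a b
    obtain ⟨c, h1, h2⟩ := Cfsg.Agent.Lib.Classical.Lin.Transvections.exists_third_index
      (ι := Fin n) (by simpa using hn) a b
    exact ⟨c, h1.symm, h2⟩
  have hm1 : (-1 : F) ^ q = -1 := by
    rw [← sigE_apply hF, map_neg, map_one]
  obtain ⟨x₀, hx₀⟩ := Cfsg.Agent.Lib.Classical.Herm.Basic.exists_norm_eq hF (-1 : F) (by simp) hm1
  have hx₀0 : x₀ ≠ 0 := by
    rintro rfl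
    rw [zero_pow (by omega)] at hx₀
    simp at hx₀
  have hm2 : (-1 : F) ^ (q + 1) = 1 := by
    rw [pow_succ, hm1]
    ring
  have hoff : ∀ a i : Fin n, a ≠ i → (A : Matrix (Fin n) (Fin n) F) a i = 0 := by
    intro a i hai
    obtain ⟨l, hl1, hl2⟩ := hthird a i
    obtain ⟨κ₁, h1⟩ := col_eq hF A τ h (k := a) hl2.symm ⟨hai, hl1.symm⟩ hx₀
    obtain ⟨κ₂, h3⟩ := col_eq hF A τ h (k := a) (x := -x₀) hl2.symm ⟨hai, hl1.symm⟩ (by
      rw [neg_eq_neg_one_mul, mul_pow, hm2, one_mul, hx₀])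
    have h4 := h1 a
    have h5 := h3 a
    simp only [hai, hl1.symm, if_false, add_zero, mul_zero, map_neg, neg_mul] at h4 h5
    have h6 : (2 : F) * (A : Matrix (Fin n) (Fin n) F) a i = 0 := by
      linear_combination h4 + h5
    exact (mul_eq_zero.1 h6).resolve_left h2
  have hdiag : ∀ i, (A : Matrix (Fin n) (Fin n) F) i i ≠ 0 := by
    intro i h0
    have h1 : ((A⁻¹ : GL (Fin n) F) : Matrix (Fin n) (Fin n) F) * (A : Matrix (Fin n) (Fin n) F) = 1 := by
      rw [← Units.val_mul]; simp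
    have h3 := congrFun (congrFun h1 i) i
    rw [Matrix.mul_apply, Finset.sum_eq_zero, Matrix.one_apply_eq] at h3
    · exact zero_ne_one h3
    · intro b _
      by_cases hb : b = i
      · rw [hb, h0, mul_zero]
      · rw [hoff b i hb, mul_zero]
  have hE : ∀ (i l : Fin n), i ≠ l → ∀ x : F, x ^ (q + 1) = -1 →
      τ x * (A : Matrix (Fin n) (Fin n) F) l l = (A : Matrix (Fin n) (Fin n) F) i i * x := by
    intro i l hil x hx
    obtain ⟨k, hk1, hk2⟩ := hthird i l
    obtain ⟨κ, h1⟩ := col_eq hF A τ h hil ⟨hk1, hk2⟩ hx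
    have h3 := h1 i
    have h4 := h1 l
    rw [hoff i l hil] at h3
    rw [hoff l i hil.symm] at h4
    simp only [if_true, hil, hil.symm, if_false, add_zero, mul_zero, mul_one, zero_add] at h3 h4
    rw [h4, h3]
  have hτ : τ = 1 := by
    apply field_eq_one_of_fix hF hFr hf
    intro u hu
    obtain ⟨i, l, hil⟩ : ∃ i l : Fin n, i ≠ l := ⟨⟨0, by omega⟩, ⟨1, by omega⟩, by simp [Fin.ext_iff]⟩
    have h1 := hE i l hil x₀ hx₀
    have h3 := hE i l hil (u * x₀) (by rw [mul_pow, hu, one_mul, hx₀])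
    rw [map_mul] at h3
    have h4 : τ x₀ * (A : Matrix (Fin n) (Fin n) F) l l ≠ 0 := mul_ne_zero ((map_ne_zero τ).2 hx₀0) (hdiag l)
    apply mul_right_cancel₀ h4
    linear_combination h3 - u * h1
  subst hτ
  have hscal : ∀ i l : Fin n, (A : Matrix (Fin n) (Fin n) F) l l = (A : Matrix (Fin n) (Fin n) F) i i := by
    intro i l
    by_cases hil : i = l
    · rw [hil]
    · have h1 := hE i l hil x₀ hx₀
      apply mul_left_cancel₀ hx₀0
      rw [mul_comm _ ((A : Matrix (Fin n) (Fin n) F) i i), ← h1]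
      simp
  have hAs : A = sG n (Units.mk0 _ (hdiag 0)) := by
    apply Units.ext
    rw [coe_sG]
    ext a b
    by_cases hab : a = b
    · subst hab
      simp [hscal 0 a]
    · simp [hab, hoff a b hab]
  rw [fieldP_one, mul_one, hAs, conjP_sG]

/-- An explicit involution of `PSU_n`. -/
theorem exists_invol (h2 : (2 : F) ≠ 0) (hn : 3 ≤ n) : ∃ s₀ : SU n F q, orderOf (mkP s₀.1) = 2 := by
  classical
  haveI : NeZero n := ⟨by omega⟩
  haveI : Fact (Nat.Prime 2) := ⟨Nat.prime_two⟩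
  set i₀ : Fin n := ⟨0, by omega⟩
  set i₁ : Fin n := ⟨1, by omega⟩
  set i₂ : Fin n := ⟨2, by omega⟩
  have h02 : i₂ ≠ i₀ := by simp [i₀, i₂, Fin.ext_iff]
  have h12 : i₂ ≠ i₁ := by simp [i₁, i₂, Fin.ext_iff]
  have h01 : i₀ ≠ i₁ := by simp [i₀, i₁, Fin.ext_iff]
  set d : Fin n → F := fun i => (if i = i₀ then (-1 : F) else 1) * (if i = i₁ then (-1 : F) else 1) with hd
  have hdet : (Matrix.diagonal d).det = 1 := by
    rw [Matrix.det_diagonal, hd, Finset.prod_mul_distrib, Finset.prod_ite_eq', Finset.prod_ite_eq']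
    simp
  have hm1 : (-1 : F) ^ q = -1 := by
    rw [← sigE_apply hF, map_neg, map_one]
  have hdd : ∀ i, d i * d i ^ q = 1 := by
    intro i
    have h1 : d i ^ q = d i := by
      rw [← sigE_apply hF]
      simp only [hd, map_mul]
      split_ifs <;> simp
    rw [h1]
    simp only [hd]
    split_ifs <;> ring
  have hpres : Cfsg.Agent.Lib.Classical.Herm.GU.Preserves q (Matrix.diagonal d) := by
    intro u v
    rw [Cfsg.Agent.Lib.Classical.Herm.Basic.hermForm_apply, Cfsg.Agent.Lib.Classical.Herm.Basic.hermForm_apply]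
    refine Finset.sum_congr rfl fun i _ => ?_
    rw [Matrix.mulVec_diagonal, Matrix.mulVec_diagonal, mul_pow]
    calc _ = (d i * d i ^ q) * (u i * v i ^ q) := by ring
      _ = _ := by rw [hdd, one_mul]
  refine ⟨Cfsg.Agent.Lib.Classical.Herm.SU.mkSU (Matrix.diagonal d) hdet hpres, ?_⟩
  apply orderOf_eq_prime
  · rw [← map_pow]
    apply mkP_eq_one_iff.2
    refine ⟨1, ?_⟩
    rw [Matrix.SpecialLinearGroup.coe_pow]
    change (Matrix.diagonal d) ^ 2 = _
    rw [Matrix.diagonal_pow, one_smul, ← Matrix.diagonal_one]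
    congr 1
    funext i
    simp only [Pi.pow_apply, hd]
    split_ifs <;> ring
  · rw [Ne, mkP_eq_one_iff]
    rintro ⟨r, hr⟩
    have h3 : Matrix.diagonal d = r • 1 := hr
    have h4 := congrFun (congrFun h3 i₀) i₀
    have h5 := congrFun (congrFun h3 i₂) i₂
    simp [hd, h01, h02, h12, Matrix.diagonal_apply] at h4 h5
    apply h2
    linear_combination h5 - h4

/-- Membership in `SU` in terms of `GU`. -/
theorem mem_SU_iff (s : Matrix.SpecialLinearGroup (Fin n) F) : s ∈ SU n F q ↔ Matrix.SpecialLinearGroup.toGL s ∈ GU n F q := Iff.rfl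

/-- **Local balance for graph-field involutions of `PSL`.** -/
theorem unitary_bal {r f : ℕ} [hr : Fact r.Prime] (hFr : Fintype.card F = r ^ f) (hf : 1 ≤ f) (h2 : (2 : F) ≠ 0) (hn : 3 ≤ n)
    (C L : Subgroup (MulAut Pn)) (hC : ∀ β ∈ C, β * gfP (sigE hF) = gfP (sigE hF) * β)
    (hK : ∀ k ∈ MonoidHom.eqLocus (gfP (sigE hF) : MulAut Pn).toMonoidHom (MonoidHom.id Pn), MulAut.conj k ∈ C)
    (hLC : L ≤ C) (hLn : ∀ c ∈ C, ∀ y ∈ L, c * y * c⁻¹ ∈ L) (hco : (Nat.card L).Coprime 2)
    (hLcf : ∀ α ∈ L, ∃ (A : GL (Fin n) F) (τ : F ≃+* F), α = conjP A * fieldP τ) : L = ⊥ := by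
  classical
  haveI : NeZero n := ⟨by omega⟩
  haveI : Finite Pn := inferInstance
  have hn2 : 2 ≤ n := by omega
  have hinj := conj_injective (n := n) (F := F) hn2
  set E := MonoidHom.eqLocus (gfP (sigE hF) : MulAut Pn).toMonoidHom (MonoidHom.id Pn) with hE
  have hmemE : ∀ k, k ∈ E ↔ gfP (sigE hF) k = k := fun k => Iff.rfl
  have hconj : ∀ (β : MulAut Pn) (k : Pn), β * MulAut.conj k * β⁻¹ = MulAut.conj (β k) := by
    intro β k
    rw [aut_mul_conj, mul_inv_cancel_right]
  set ψ : SU n F q →* MulAut Pn := (MulAut.conj : Pn →* MulAut Pn).comp (mkP.comp (SU n F q).subtype) with hψ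
  have hψa : ∀ s : SU n F q, ψ s = MulAut.conj (mkP s.1) := fun _ => rfl
  -- an element of `SU` gives a fixed point
  have hfixS : ∀ s : SU n F q, mkP s.1 ∈ E := by
    intro s
    rw [hmemE]
    have h1 := comm_of_GU hF _ ((mem_SU_iff hF s.1).1 s.2)
    rw [← conj_mk_eq_conjP, aut_mul_conj] at h1
    exact hinj (mul_right_cancel h1)
  apply Cfsg.Agent.Lib.Classical.Symp.Aut.Balance.abstract_balance 2 C L (E.map (MulAut.conj : Pn →* MulAut Pn))
    ψ.range hLC hLn ?_ ?_ ?_ ?_ ?_ hco ?_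
  · rintro _ ⟨k, hk, rfl⟩
    exact hK k hk
  · rintro c hc _ ⟨k, hk, rfl⟩
    refine ⟨c k, ?_, (hconj c k).symm⟩
    rw [SetLike.mem_coe, hmemE]
    have h1 : c (gfP (sigE hF) k) = gfP (sigE hF) (c k) := DFunLike.congr_fun (hC c hc) k
    rw [← h1, (hmemE k).1 hk]
  · rintro _ ⟨s, rfl⟩
    exact ⟨_, hfixS s, rfl⟩
  · rintro _ ⟨k, hk, rfl⟩ _ ⟨s, rfl⟩
    obtain ⟨s₁, rfl⟩ := mkP_surjective k
    have hk' : gfP (sigE hF) (mkP s₁) = mkP s₁ := hk
    have h1 : (gfP (sigE hF) * conjP (Matrix.SpecialLinearGroup.toGL s₁) : MulAut Pn) = conjP (Matrix.SpecialLinearGroup.toGL s₁) * gfP (sigE hF) := by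
      rw [← conj_mk_eq_conjP, aut_mul_conj, hk']
    obtain ⟨a, ha⟩ := exists_GU_of_comm hF hn _ h1
    have hmem : s₁ * s.1 * s₁⁻¹ ∈ SU n F q := by
      rw [mem_SU_iff hF]
      have h3 := (GU n F q).mul_mem ((GU n F q).mul_mem ha ((mem_SU_iff hF s.1).1 s.2)) ((GU n F q).inv_mem ha)
      have h4 : Matrix.SpecialLinearGroup.toGL (s₁ * s.1 * s₁⁻¹) =
          sG n a * Matrix.SpecialLinearGroup.toGL s₁ * Matrix.SpecialLinearGroup.toGL s.1 * (sG n a * Matrix.SpecialLinearGroup.toGL s₁)⁻¹ := by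
        have hc : Commute (sG n a) (Matrix.SpecialLinearGroup.toGL s₁ * Matrix.SpecialLinearGroup.toGL s.1 * (Matrix.SpecialLinearGroup.toGL s₁)⁻¹) :=
          (Subgroup.mem_center_iff.1 (sG_mem_center a) _).symm
        have h5 : sG n a * Matrix.SpecialLinearGroup.toGL s₁ * Matrix.SpecialLinearGroup.toGL s.1 * (sG n a * Matrix.SpecialLinearGroup.toGL s₁)⁻¹ =
            (sG n a * (Matrix.SpecialLinearGroup.toGL s₁ * Matrix.SpecialLinearGroup.toGL s.1 * (Matrix.SpecialLinearGroup.toGL s₁)⁻¹)) * (sG n a)⁻¹ := by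
          group
        rw [h5, hc.eq, mul_inv_cancel_right, map_mul, map_mul, map_inv]
      rw [h4]
      exact h3
    refine ⟨⟨_, hmem⟩, ?_⟩
    rw [hψa]
    change MulAut.conj _ = MulAut.conj (mkP s₁) * MulAut.conj (mkP s.1) * (MulAut.conj (mkP s₁))⁻¹
    rw [hconj]
    congr 1
  · intro N hNT hNn hNco
    have hψc : ∀ z ∈ Subgroup.center (SU n F q), ψ z = 1 := by
      intro z hz
      obtain ⟨c, hc⟩ := Cfsg.Agent.Lib.Classical.Herm.SU.center_scalar hF z hz
      rw [hψa]
      have h1 : mkP z.1 = 1 := by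
        apply mkP_eq_one_iff.2
        refine ⟨c, ?_⟩
        rw [hc]
        ext a b
        by_cases hab : a = b
        · subst hab
          simp
        · simp [hab]
      rw [h1, map_one]
    set Ψ : PSU n F q →* MulAut Pn := QuotientGroup.lift _ ψ hψc with hΨ
    have hr : Ψ.range = ψ.range := by
      ext z
      constructor
      · rintro ⟨y, rfl⟩
        obtain ⟨s, rfl⟩ := QuotientGroup.mk_surjective y
        exact ⟨s, rfl⟩
      · rintro ⟨s, rfl⟩
        exact ⟨QuotientGroup.mk s, rfl⟩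
    have h32 : ¬ (n = 3 ∧ q = 2) := by
      rintro ⟨-, rfl⟩
      apply h2
      have h3 : ((Fintype.card F : ℕ) : F) = 0 := FiniteField.cast_card_eq_zero F
      rw [hF] at h3
      have h4 : (2 : F) ^ 2 = 0 := by exact_mod_cast h3
      exact pow_eq_zero_iff (by norm_num) |>.1 h4
    have hsimple := Cfsg.Agent.Lib.Classical.Herm.Simple.isSimpleGroup_PSU hF hn h32
    obtain ⟨s₀, hs₀⟩ := exists_invol hF h2 hn
    refine bot_of_key Ψ N (by rw [hr]; exact hNT) (by rw [hr]; exact hNn) Nat.prime_two (QuotientGroup.mk s₀) ?_ ?_ hNco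
    · intro M hM
      rcases hM.eq_bot_or_eq_top with h | h
      · exact Or.inl h
      · right
        rw [h]
        exact Subgroup.mem_top _
    · change orderOf (MulAut.conj (mkP s₀.1)) = 2
      rw [orderOf_injective _ hinj]
      exact hs₀
  · intro α hα hcomm
    obtain ⟨A, τ, rfl⟩ := hLcf α hα
    apply eq_one_of_fix_su hF hFr hf h2 hn
    intro s
    have h1 := hcomm (ψ s) ⟨s, rfl⟩
    rw [hψa, aut_mul_conj] at h1
    exact hinj (mul_right_cancel h1)

end Cfsg.Agent.Lib.Classical.PslBal.Uni
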