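import Mathlib
import Cfsg.Agent.Lib.Classical.PslBal.Uni
import Cfsg.Agent.Lib.Classical.OrthAut.BalA
import Cfsg.Agent.Lib.Classical.OrthAut.BalB
import Cfsg.Agent.Lib.Classical.Orth.Semi1

/-!
# Local balance for `PSL`: semilinear maps and the block lemma
-/

set_option autoImplicit false
set_option linter.unusedSectionVars false
set_option linter.unusedVariables false
set_option linter.unusedSimpArgs false
set_option linter.style.haveILetI false

open scoped Matrix MatrixGroups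
open Cfsg
open Cfsg.Agent.Lib.Classical.Herm.Descent Cfsg.Agent.Lib.Classical.Herm.GLDescent
open Cfsg.Agent.Lib.Classical.Herm.PSLGraphField
open Cfsg.Agent.Lib.Linalg.AutPSLBasic Cfsg.Agent.Lib.Linalg.AutPSLStd Cfsg.Agent.Lib.Linalg.AutPSLCount
open Cfsg.Agent.Lib.Linalg.AutPSLMain
open Cfsg.Agent.Lib.Classical.PslBal.Fld
open Cfsg.Agent.Lib.Classical.OrthAut.BalB
open Cfsg.Agent.Lib.Classical.Orth.Semi (GS sm sm_def sm_mul sm_one sm_add sm_smul sm_zero sm_inv_sm sm_sm_inv phi)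

namespace Cfsg.Agent.Lib.Classical.PslBal.Blk

section Block

open MulAction

variable {S G : Type*} [Group G] [MulAction G S]

theorem orbit_inv (L : Subgroup G) (P : S) {u : G} (hn : ∀ l ∈ L, u * l * u⁻¹ ∈ L) (hP : u • P = P) {R : S}
    (hR : R ∈ orbit L P) : u • R ∈ orbit L P := by
  obtain ⟨l, rfl⟩ := hR
  refine ⟨⟨u * l.1 * u⁻¹, hn l.1 l.2⟩, ?_⟩
  change (u * l.1 * u⁻¹) • P = u • (l.1 • P)
  rw [mul_smul, mul_smul]
  congr 2
  rw [inv_smul_eq_iff, hP]

/-- **Block lemma**, first part: two points of an orbit are perpendicular. -/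
theorem block_clique (X : Set S) [Finite X] (L : Subgroup G) (hLX : ∀ l ∈ L, ∀ P ∈ X, l • P ∈ X)
    (perp : S → S → Prop) (hsymm : ∀ P R, perp P R → perp R P) (U : Set G)
    (hUX : ∀ u ∈ U, ∀ P ∈ X, u • P ∈ X) (hUn : ∀ u ∈ U, ∀ l ∈ L, u * l * u⁻¹ ∈ L)
    (hodd : ∀ P ∈ X, Odd (Nat.card (orbit L P)))
    (H1 : ∀ P ∈ X, ∀ R ∈ X, ∀ R' ∈ X, ¬ perp P R → ¬ perp P R' → ∃ u ∈ U, u • P = P ∧ u • R = R')
    (H3 : ∀ P ∈ X, ∀ R ∈ X, perp P R → ∃ Z ∈ X, ¬ perp P Z ∧ ¬ perp R Z)
    (H4 : Even (Nat.card X)) : ∀ l ∈ L, ∀ P ∈ X, perp P (l • P) := by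
  have hinv : ∀ P : S, ∀ u ∈ U, u • P = P → ∀ R ∈ orbit L P, u • R ∈ orbit L P :=
    fun P u hu hP R hR => orbit_inv L P (hUn u hu) hP hR
  have hX : ∀ P ∈ X, ∀ R ∈ orbit L P, R ∈ X := by
    rintro P hP _ ⟨l, rfl⟩
    exact hLX l.1 l.2 P hP
  have step1 : ∀ P ∈ X, ∀ R ∈ orbit L P, ¬ perp P R → ∀ R' ∈ X, ¬ perp P R' → R' ∈ orbit L P := by
    intro P hP R hR hPR R' hR' hPR'
    obtain ⟨u, hu, hu1, hu2⟩ := H1 P hP R (hX P hP R hR) R' hR' hPR hPR'
    rw [← hu2]
    exact hinv P u hu hu1 R hR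
  have step2 : ∀ P ∈ X, ∀ R ∈ orbit L P, ¬ perp P R → ∀ R' ∈ X, R' ∈ orbit L P := by
    intro P hP R hR hPR R' hR'
    by_cases hp : perp P R'
    swap
    · exact step1 P hP R hR hPR R' hR' hp
    obtain ⟨Z, hZ, hPZ, hR'Z⟩ := H3 P hP R' hR' hp
    have hZP : Z ∈ orbit L P := step1 P hP R hR hPR Z hZ hPZ
    have he : orbit L Z = orbit L P := orbit_eq_iff.2 hZP
    rw [← he]
    refine step1 Z hZ P ?_ (fun h => hPZ (hsymm _ _ h)) R' hR' (fun h => hR'Z (hsymm _ _ h))
    rw [he]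
    exact mem_orbit_self P
  have step3 : ∀ P ∈ X, ¬ (∀ R' ∈ X, R' ∈ orbit L P) := by
    intro P hP hall
    have he : orbit L P = X := Set.Subset.antisymm (hX P hP) hall
    have h1 := hodd P hP
    rw [he] at h1
    exact (Nat.not_even_iff_odd.2 h1) H4
  intro l hl P hP
  by_contra hperp
  exact step3 P hP (step2 P hP _ ⟨⟨l, hl⟩, rfl⟩ hperp)

end Block

section Main

variable {n : ℕ} {F : Type*} [Field F] [Fintype F]

local notation "Pn" => Matrix.ProjectiveSpecialLinearGroup (Fin n) F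
local notation "V" => (Fin n → F)

/-- The group of semilinear maps acts on `PSL`. -/
noncomputable def piS : GS (Fin n) F →* MulAut Pn :=
  SemidirectProduct.lift conjHom (fieldHom n F) (by
    intro σ
    ext1 g
    have h1 := conj_conjP_field (n := n) σ g
    have h2 : ((Cfsg.Agent.Lib.Classical.Orth.Semi.mapG σ g : GL (Fin n) F)) = mapG σ g := rfl
    apply MulEquiv.ext
    intro x
    change (conjP (Cfsg.Agent.Lib.Classical.Orth.Semi.mapG σ g) : MulAut Pn) x = (fieldP σ * conjP g * (fieldP σ)⁻¹ : MulAut Pn) x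
    rw [h1, h2])

theorem piS_apply (x : GS (Fin n) F) : piS x = conjP x.left * fieldP x.right := rfl

/-- `GS` acts on sets of vectors. -/
@[instance_reducible] def actS : MulAction (GS (Fin n) F) (Set V) where
  smul Y S := sm Y '' S
  one_smul S := by
    change sm (1 : GS (Fin n) F) '' S = S
    ext v
    simp [sm_one]
  mul_smul X Y S := by
    change sm (X * Y) '' S = sm X '' (sm Y '' S)
    ext v
    simp [sm_mul]

attribute [local instance] actS

theorem smul_set (Y : GS (Fin n) F) (S : Set V) : Y • S = sm Y '' S := rfl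

theorem image_line_S (Y : GS (Fin n) F) (a : V) : sm Y '' line F a = line F (sm Y a) := by
  ext v
  constructor
  · rintro ⟨_, ⟨k, rfl⟩, rfl⟩
    exact ⟨Y.right k, (sm_smul Y k a).symm⟩
  · rintro ⟨k, rfl⟩
    refine ⟨Y.right.symm k • a, ⟨_, rfl⟩, ?_⟩
    change sm Y (Y.right.symm k • a) = k • sm Y a
    rw [sm_smul]
    simp

theorem smul_line (Y : GS (Fin n) F) (a : V) : Y • line F a = line F (sm Y a) := image_line_S Y a

theorem sm_ne_zero (Y : GS (Fin n) F) {a : V} (ha : a ≠ 0) : sm Y a ≠ 0 := by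
  intro h
  apply ha
  rw [← sm_inv_sm Y a, h, sm_zero]

/-- The kernel of `piS` consists of scalars. -/
theorem scalar_of_piS (hn : 2 ≤ n) {z : GS (Fin n) F} (hz : piS z = 1) : ∃ c : F, c ≠ 0 ∧ ∀ v, sm z v = c • v := by
  haveI : NeZero n := ⟨by omega⟩
  rw [piS_apply] at hz
  have h1 := rigid_field hn hz
  have h2 : z.right = 1 := h1
  rw [h2, fieldP_one, mul_one] at hz
  obtain ⟨u, hu⟩ := exists_scalar_of_conjP hn hz
  refine ⟨u, u.ne_zero, fun v => ?_⟩
  rw [sm_def, hu, h2, coe_sG]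
  ext i
  simp [Matrix.mulVec, dotProduct, Matrix.scalar_apply, Matrix.diagonal_apply]

/-- Orbits of the preimage of an odd order subgroup have odd length. -/
theorem odd_orbit_S (hn : 2 ≤ n) (L : Subgroup (MulAut Pn)) (hL : Odd (Nat.card L)) (a : V) :
    Odd (Nat.card (MulAction.orbit (L.comap piS) (line F a))) := by
  apply Cfsg.Agent.Lib.Classical.OrthAut.BalA.odd_orbit (L.comap piS) (line F a) (piS.comp (L.comap piS).subtype)
  · rintro ⟨z, hzL⟩ hz
    obtain ⟨c, hc0, hc⟩ := scalar_of_piS hn (z := z) hz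
    change z • line F a = line F a
    rw [smul_line, hc]
    exact line_smul hc0
  · have h1 : (piS.comp (L.comap piS).subtype).range ≤ L := by
      rintro _ ⟨z, rfl⟩
      exact z.2
    exact Odd.of_dvd_nat hL (Subgroup.card_dvd_of_le h1)

/-- A matrix identity from the preservation of a bilinear form. -/
theorem transpose_form_eq {E M N : Matrix (Fin n) (Fin n) F}
    (h : ∀ v w : V, (E *ᵥ v) ⬝ᵥ (M *ᵥ (E *ᵥ w)) = v ⬝ᵥ (N *ᵥ w)) : E.transpose * M * E = N := by
  ext i j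
  have h1 := h (Pi.single i 1) (Pi.single j 1)
  rw [← Matrix.vecMul_transpose, ← Matrix.dotProduct_mulVec, Matrix.mulVec_mulVec, Matrix.mulVec_mulVec] at h1
  simpa [Matrix.mulVec_single_one, single_one_dotProduct] using h1

variable {G : GL (Fin n) F}

/-- The form attached to `G`. -/
noncomputable abbrev mG (G : GL (Fin n) F) : Matrix (Fin n) (Fin n) F := ((G⁻¹ : GL (Fin n) F) : Matrix (Fin n) (Fin n) F)

theorem mG_mul : mG G * (G : Matrix (Fin n) (Fin n) F) = 1 := by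
  rw [mG, ← Units.val_mul]
  simp

theorem mul_mG : (G : Matrix (Fin n) (Fin n) F) * mG G = 1 := by
  rw [mG, ← Units.val_mul]
  simp

/-- An automorphism commuting with `conjP G * itP` is a semisimilarity. -/
theorem semi_of_comm (hn : 3 ≤ n) (Y : GS (Fin n) F)
    (h : piS Y * (conjP G * itP) = (conjP G * itP) * piS Y) :
    ∃ u : F, u ≠ 0 ∧ ∀ v w : V, (sm Y v) ⬝ᵥ (mG G *ᵥ sm Y w) = u * Y.right (v ⬝ᵥ (mG G *ᵥ w)) := by
  have hn2 : 2 ≤ n := by omega
  set A := Y.left with hA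
  set τ := Y.right with hτ
  rw [piS_apply] at h
  have h1 : (conjP A * fieldP τ * (conjP G * itP) : MulAut Pn) = conjP (A * mapG τ G) * (fieldP τ * itP) := by
    rw [conjP_mul, mul_assoc (conjP A), ← mul_assoc (fieldP τ), fieldP_mul_conjP]
    simp only [mul_assoc]
  have h2 : (conjP G * itP * (conjP A * fieldP τ) : MulAut Pn) = conjP (G * trI A) * (fieldP τ * itP) := by
    rw [conjP_mul, mul_assoc (conjP G), ← mul_assoc itP, itP_mul_conjP, mul_assoc (conjP (trI A)), itP_mul_fieldP hn]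
    simp only [mul_assoc]
  rw [h1, h2] at h
  have h3 := mul_right_cancel h
  have h4 : (conjP ((G * trI A)⁻¹ * (A * mapG τ G)) : MulAut Pn) = 1 := by
    rw [conjP_mul, conjP_inv, h3, inv_mul_cancel]
  obtain ⟨u, hu⟩ := exists_scalar_of_conjP hn2 h4
  have h5 : A * mapG τ G = G * trI A * sG n u := by
    rw [← hu]
    group
  have h6 : (A : Matrix (Fin n) (Fin n) F) * (G : Matrix (Fin n) (Fin n) F).map τ =
      (u : F) • ((G : Matrix (Fin n) (Fin n) F) * ((A⁻¹ : GL (Fin n) F) : Matrix (Fin n) (Fin n) F).transpose) := by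
    have h7 := congrArg (fun g : GL (Fin n) F => (g : Matrix (Fin n) (Fin n) F)) h5
    simp only [Units.val_mul, coe_mapG, coe_sG, coe_trI] at h7
    rw [h7, Matrix.scalar_apply, ← Matrix.smul_one_eq_diagonal, Matrix.mul_smul, Matrix.mul_one]
  have hM : (mG G).map τ * (G : Matrix (Fin n) (Fin n) F).map τ = 1 := by
    rw [← Matrix.map_mul, mG_mul]
    ext i j
    by_cases hij : i = j
    · subst hij
      simp
    · simp [hij]
  have hM2 : (G : Matrix (Fin n) (Fin n) F).map τ * (mG G).map τ = 1 := mul_eq_one_comm.1 hM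
  have hAt : (A : Matrix (Fin n) (Fin n) F).transpose * ((A⁻¹ : GL (Fin n) F) : Matrix (Fin n) (Fin n) F).transpose = 1 := by
    rw [← Matrix.transpose_mul, ← Units.val_mul]
    simp
  have h8 : (A : Matrix (Fin n) (Fin n) F).transpose * mG G * (A : Matrix (Fin n) (Fin n) F) = (u : F) • (mG G).map τ := by
    calc _ = (A : Matrix (Fin n) (Fin n) F).transpose * mG G * ((A : Matrix (Fin n) (Fin n) F) * ((G : Matrix (Fin n) (Fin n) F).map τ * (mG G).map τ)) := by
          rw [hM2, Matrix.mul_one]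
      _ = (A : Matrix (Fin n) (Fin n) F).transpose * mG G * ((A : Matrix (Fin n) (Fin n) F) * (G : Matrix (Fin n) (Fin n) F).map τ) * (mG G).map τ := by
          simp only [Matrix.mul_assoc]
      _ = (u : F) • ((A : Matrix (Fin n) (Fin n) F).transpose * (mG G * (G : Matrix (Fin n) (Fin n) F)) * ((A⁻¹ : GL (Fin n) F) : Matrix (Fin n) (Fin n) F).transpose * (mG G).map τ) := by
          rw [h6, Matrix.mul_smul, Matrix.smul_mul]
          simp only [Matrix.mul_assoc]
      _ = _ := by rw [mG_mul, Matrix.mul_one, hAt, Matrix.one_mul]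
  refine ⟨u, u.ne_zero, fun v w => ?_⟩
  rw [sm_def, sm_def, ← hA, ← hτ, ← Matrix.vecMul_transpose, ← Matrix.dotProduct_mulVec, Matrix.mulVec_mulVec, Matrix.mulVec_mulVec, h8,
    Matrix.smul_mulVec, dotProduct_smul, smul_eq_mul]
  congr 1
  have h9 : τ (v ⬝ᵥ (mG G *ᵥ w)) = (fun i => τ (v i)) ⬝ᵥ (fun i => τ ((mG G *ᵥ w) i)) := by
    simp only [dotProduct, map_sum, map_mul]
  rw [h9, Cfsg.Agent.Lib.Classical.Orth.Semi.map_mulVec']

/-- An element preserving the form commutes with `conjP G * itP`. -/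
theorem comm_of_pres (s : Matrix.SpecialLinearGroup (Fin n) F)
    (h : ∀ v w : V, ((s : Matrix (Fin n) (Fin n) F) *ᵥ v) ⬝ᵥ (mG G *ᵥ ((s : Matrix (Fin n) (Fin n) F) *ᵥ w)) = v ⬝ᵥ (mG G *ᵥ w)) :
    MulAut.conj (mkP s) * (conjP G * itP) = (conjP G * itP) * MulAut.conj (mkP s) := by
  rw [conj_mk_eq_conjP, ← mul_assoc, ← conjP_mul, mul_assoc, itP_mul_conjP, ← mul_assoc, ← conjP_mul]
  congr 2
  have h1 := transpose_form_eq h
  apply Units.ext
  rw [Units.val_mul, Units.val_mul, coe_trI]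
  have h2 : ((((Matrix.SpecialLinearGroup.toGL s)⁻¹ : GL (Fin n) F) : Matrix (Fin n) (Fin n) F)).transpose * (s : Matrix (Fin n) (Fin n) F).transpose = 1 := by
    rw [← Matrix.transpose_mul]
    have : ((Matrix.SpecialLinearGroup.toGL s : GL (Fin n) F) : Matrix (Fin n) (Fin n) F) * (((Matrix.SpecialLinearGroup.toGL s)⁻¹ : GL (Fin n) F) : Matrix (Fin n) (Fin n) F) = 1 := by
      rw [← Units.val_mul]; simp
    have e : ((Matrix.SpecialLinearGroup.toGL s : GL (Fin n) F) : Matrix (Fin n) (Fin n) F) = (s : Matrix (Fin n) (Fin n) F) := rfl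
    rw [e] at this
    rw [this, Matrix.transpose_one]
  set N := ((((Matrix.SpecialLinearGroup.toGL s)⁻¹ : GL (Fin n) F) : Matrix (Fin n) (Fin n) F)).transpose with hN
  have e : ((Matrix.SpecialLinearGroup.toGL s : GL (Fin n) F) : Matrix (Fin n) (Fin n) F) = (s : Matrix (Fin n) (Fin n) F) := rfl
  rw [e]
  calc (s : Matrix (Fin n) (Fin n) F) * (G : Matrix (Fin n) (Fin n) F)
      = (G : Matrix (Fin n) (Fin n) F) * mG G * (s : Matrix (Fin n) (Fin n) F) * (G : Matrix (Fin n) (Fin n) F) := by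
        rw [mul_mG, Matrix.one_mul]
    _ = (G : Matrix (Fin n) (Fin n) F) * (N * (s : Matrix (Fin n) (Fin n) F).transpose) * mG G * (s : Matrix (Fin n) (Fin n) F) * (G : Matrix (Fin n) (Fin n) F) := by
        rw [h2, Matrix.mul_one]
    _ = (G : Matrix (Fin n) (Fin n) F) * N * ((s : Matrix (Fin n) (Fin n) F).transpose * mG G * (s : Matrix (Fin n) (Fin n) F)) * (G : Matrix (Fin n) (Fin n) F) := by
        simp only [Matrix.mul_assoc]
    _ = (G : Matrix (Fin n) (Fin n) F) * N * (mG G * (G : Matrix (Fin n) (Fin n) F)) := by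
        rw [h1, Matrix.mul_assoc]
    _ = _ := by rw [mG_mul, Matrix.mul_one]

/-- A semilinear map with all singular lines as eigenlines induces the identity. -/
theorem piS_eq_one_of_eig (hn : 3 ≤ n) (h2 : (2 : F) ≠ 0) (Q : QuadraticForm F V) (hQ : Cfsg.Agent.Lib.Classical.Witt.Hyp.PolarNondeg Q)
    (Y : GS (Fin n) F) (heig : ∀ v, Q v = 0 → ∃ α : F, sm Y v = α • v) : piS Y = 1 := by
  have h3 : 3 ≤ Module.finrank F V := by simpa using hn
  set s : V →+ V := { toFun := sm Y, map_zero' := sm_zero Y, map_add' := sm_add Y } with hs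
  have hsa : ∀ v, s v = sm Y v := fun _ => rfl
  obtain ⟨hτ, α, hα0, hα⟩ := scalar_of_lines h2 hQ h3 s Y.right (fun k v => sm_smul Y k v)
    (fun a b hab => by
      have h4 : sm Y a = sm Y b := hab
      rw [← sm_inv_sm Y a, h4, sm_inv_sm]) heig
  have hr : Y.right = 1 := by
    ext k
    exact hτ k
  have hl : Y.left = sG n (Units.mk0 α hα0) := by
    apply Units.ext
    apply Matrix.ext_of_mulVec_single
    intro i
    have h4 := hα (Pi.single i 1)
    rw [hsa, sm_def, hr] at h4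
    have h5 : (fun j => (1 : F ≃+* F) ((Pi.single i 1 : V) j)) = (Pi.single i 1 : V) := rfl
    rw [h5] at h4
    rw [h4, coe_sG]
    ext j
    simp [Matrix.mulVec, dotProduct, Matrix.scalar_apply, Matrix.diagonal_apply]
  rw [piS_apply, hr, hl, conjP_sG, fieldP_one, one_mul]

/-- The group of form-preserving elements of `SL`. -/
def UG (G : GL (Fin n) F) : Set (GS (Fin n) F) :=
  {u | ∃ s : Matrix.SpecialLinearGroup (Fin n) F, u = SemidirectProduct.inl (Matrix.SpecialLinearGroup.toGL s) ∧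
    ∀ v w : V, ((s : Matrix (Fin n) (Fin n) F) *ᵥ v) ⬝ᵥ (mG G *ᵥ ((s : Matrix (Fin n) (Fin n) F) *ᵥ w)) = v ⬝ᵥ (mG G *ᵥ w)}

theorem sm_inl (E : GL (Fin n) F) (v : V) : sm (SemidirectProduct.inl E : GS (Fin n) F) v = (E : Matrix (Fin n) (Fin n) F) *ᵥ v := by
  rw [sm_def]
  rfl

theorem piS_inl (E : GL (Fin n) F) : piS (SemidirectProduct.inl E : GS (Fin n) F) = conjP E := by
  rw [piS_apply]
  change conjP E * fieldP 1 = _
  rw [fieldP_one, mul_one]

theorem UG_mul {u u' : GS (Fin n) F} (hu : u ∈ UG G) (hu' : u' ∈ UG G) : u * u' ∈ UG G := by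
  obtain ⟨s, rfl, hs⟩ := hu
  obtain ⟨s', rfl, hs'⟩ := hu'
  refine ⟨s * s', by rw [map_mul, map_mul], fun v w => ?_⟩
  rw [Matrix.SpecialLinearGroup.coe_mul, ← Matrix.mulVec_mulVec, ← Matrix.mulVec_mulVec, hs, hs']

theorem UG_normal (C L : Subgroup (MulAut Pn))
    (hCs : ∀ k : Pn, MulAut.conj k * (conjP G * itP) = (conjP G * itP) * MulAut.conj k → MulAut.conj k ∈ C)
    (hLn : ∀ c ∈ C, ∀ y ∈ L, c * y * c⁻¹ ∈ L) :
    ∀ u ∈ UG G, ∀ l ∈ L.comap piS, u * l * u⁻¹ ∈ L.comap piS := by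
  rintro _ ⟨s, rfl, hs⟩ l hl
  rw [Subgroup.mem_comap, map_mul, map_mul, map_inv, piS_inl, ← conj_mk_eq_conjP]
  exact hLn _ (hCs _ (comm_of_pres s hs)) _ hl

end Main

end Cfsg.Agent.Lib.Classical.PslBal.Blk
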