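import Mathlib
import Cfsg.Agent.Lib.Classical.PslBal.Blk

/-!
# Local balance for `PSL`: orthogonal graph involutions
-/

set_option autoImplicit false
set_option linter.unusedSectionVars false
set_option linter.unusedVariables false
set_option linter.unusedSimpArgs false
set_option linter.style.haveILetI false

open scoped Matrix MatrixGroups
open QuadraticMap
open Cfsg
open Cfsg.Agent.Lib.Classical.Herm.Descent Cfsg.Agent.Lib.Classical.Herm.GLDescent
open Cfsg.Agent.Lib.Classical.Herm.PSLGraphField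
open Cfsg.Agent.Lib.Linalg.AutPSLBasic Cfsg.Agent.Lib.Linalg.AutPSLStd Cfsg.Agent.Lib.Linalg.AutPSLCount
open Cfsg.Agent.Lib.Linalg.AutPSLMain
open Cfsg.Agent.Lib.Classical.PslBal.Fld Cfsg.Agent.Lib.Classical.PslBal.Blk
open Cfsg.Agent.Lib.Classical.OrthAut.BalB
open Cfsg.Agent.Lib.Classical.Witt.Hyp Cfsg.Agent.Lib.Classical.Witt.TS
open Cfsg.Agent.Lib.Classical.Orth.Semi (GS sm sm_def sm_mul sm_one sm_add sm_smul sm_zero sm_inv_sm sm_sm_inv phi)

namespace Cfsg.Agent.Lib.Classical.PslBal.Sym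

section QQ

variable {n : ℕ} {F : Type*} [Field F]

local notation "V" => (Fin n → F)

/-- The quadratic form of a matrix. -/
noncomputable def QQ (M : Matrix (Fin n) (Fin n) F) : QuadraticForm F V := Matrix.toQuadraticForm' M

theorem QQ_apply (M : Matrix (Fin n) (Fin n) F) (v : V) : QQ M v = v ⬝ᵥ (M *ᵥ v) := by
  simp [QQ, Matrix.toQuadraticForm', LinearMap.BilinMap.toQuadraticMap_apply, Matrix.toLinearMap₂'_apply']

theorem dot_symm {M : Matrix (Fin n) (Fin n) F} (hM : M.transpose = M) (v w : V) : v ⬝ᵥ (M *ᵥ w) = w ⬝ᵥ (M *ᵥ v) := by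
  rw [Matrix.dotProduct_mulVec, ← Matrix.mulVec_transpose, hM, dotProduct_comm]

theorem polar_QQ {M : Matrix (Fin n) (Fin n) F} (hM : M.transpose = M) (v w : V) : polar (QQ M) v w = 2 * (v ⬝ᵥ (M *ᵥ w)) := by
  rw [polar, QQ_apply, QQ_apply, QQ_apply, Matrix.mulVec_add, add_dotProduct, dotProduct_add, dotProduct_add, dot_symm hM w v]
  ring

theorem eq_zero_of_dot {x : V} (h : ∀ z : V, x ⬝ᵥ z = 0) : x = 0 := by
  funext i
  have h1 := h (Pi.single i 1)
  simpa using h1

theorem nondeg_QQ {M N : Matrix (Fin n) (Fin n) F} (hM : M.transpose = M) (h2 : (2 : F) ≠ 0) (hN : M * N = 1) : PolarNondeg (QQ M) := by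
  intro x hx
  apply eq_zero_of_dot
  intro z
  have h1 := hx (N *ᵥ z)
  rw [polar_QQ hM, Matrix.mulVec_mulVec, hN, Matrix.one_mulVec] at h1
  exact (mul_eq_zero.1 h1).resolve_left h2

/-- Perpendicularity of sets. -/
def Pp (Q : QuadraticForm F V) (S R : Set V) : Prop := ∀ x ∈ S, ∀ y ∈ R, polar Q x y = 0

theorem pp_line {Q : QuadraticForm F V} {a b : V} : Pp Q (line F a) (line F b) ↔ polar Q a b = 0 := by
  constructor
  · intro h
    exact h a (self_mem_line a) b (self_mem_line b)
  · rintro h _ ⟨k, rfl⟩ _ ⟨k', rfl⟩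
    simp only [polar_smul_left, polar_smul_right, h, smul_zero]

theorem sieg_plane {Q : QuadraticForm F V} {a b w : V} (ha : Q a = 0) (hab : polar Q a b = 0)
    (hw2 : polar Q a w = 0) (hw3 : polar Q b w = 1) (t : F) :
    siegFun Q w (t • a) a = a ∧ siegFun Q w (t • a) b = b + t • a := by
  have haa : polar Q a a = 0 := by rw [pself, ha, mul_zero]
  have hba : polar Q b a = 0 := by rw [polar_comm]; exact hab
  constructor
  · simp [siegFun, hw2, polar_smul_right, haa]
  · simp [siegFun, hw3, polar_smul_right, hba, ha, QuadraticMap.map_smul]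

end QQ

section Main

variable {n : ℕ} {F : Type*} [Field F] [Fintype F]

local notation "Pn" => Matrix.ProjectiveSpecialLinearGroup (Fin n) F
local notation "V" => (Fin n → F)

attribute [local instance] actS

variable {G : GL (Fin n) F}

theorem mG_symm (hG : (G : Matrix (Fin n) (Fin n) F).transpose = G) : (mG G).transpose = mG G := by
  have h1 : (mG G).transpose * (G : Matrix (Fin n) (Fin n) F) = 1 := by
    have h2 := congrArg Matrix.transpose (mul_mG (G := G))
    rwa [Matrix.transpose_mul, hG, Matrix.transpose_one] at h2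
  calc (mG G).transpose = (mG G).transpose * ((G : Matrix (Fin n) (Fin n) F) * mG G) := by rw [mul_mG, Matrix.mul_one]
    _ = _ := by rw [← Matrix.mul_assoc, h1, Matrix.one_mul]

/-- A map preserving the quadratic form preserves the bilinear form. -/
theorem pres_of_Q (hG : (G : Matrix (Fin n) (Fin n) F).transpose = G) (h2 : (2 : F) ≠ 0) {E : Matrix (Fin n) (Fin n) F}
    (hE : ∀ v, QQ (mG G) (E *ᵥ v) = QQ (mG G) v) (v w : V) :
    (E *ᵥ v) ⬝ᵥ (mG G *ᵥ (E *ᵥ w)) = v ⬝ᵥ (mG G *ᵥ w) := by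
  have hs := mG_symm hG
  have h1 : polar (QQ (mG G)) (E *ᵥ v) (E *ᵥ w) = polar (QQ (mG G)) v w := by
    rw [polar, polar, ← Matrix.mulVec_add, hE, hE, hE]
  rw [polar_QQ hs, polar_QQ hs] at h1
  exact mul_left_cancel₀ h2 h1

/-- The Eichler maps lie in `UG`. -/
theorem sieg_mem_U (hG : (G : Matrix (Fin n) (Fin n) F).transpose = G) (h2 : (2 : F) ≠ 0) {a c : V}
    (ha : QQ (mG G) a = 0) (hc : polar (QQ (mG G)) a c = 0) :
    ∃ u ∈ UG G, ∀ v, sm u v = siegFun (QQ (mG G)) a c v := by
  set Q := QQ (mG G) with hQ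
  set E : V → Matrix (Fin n) (Fin n) F := fun c => LinearMap.toMatrix' (siegL Q a c) with hE
  have hEv : ∀ c v, E c *ᵥ v = siegFun Q a c v := fun c v => by
    rw [hE]
    change (LinearMap.toMatrix' (siegL Q a c)) *ᵥ v = _
    rw [LinearMap.toMatrix'_mulVec]
    rfl
  have hpres : ∀ c, polar Q a c = 0 → ∀ v w : V, (E c *ᵥ v) ⬝ᵥ (mG G *ᵥ (E c *ᵥ w)) = v ⬝ᵥ (mG G *ᵥ w) := by
    intro c hc v w
    refine pres_of_Q hG h2 (fun v => ?_) v w
    rw [hEv]
    exact Q_sieg ha hc v
  have hdetM : (mG G).det ≠ 0 := by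
    intro h0
    have h1 := congrArg Matrix.det (mG_mul (G := G))
    rw [Matrix.det_mul, h0, zero_mul, Matrix.det_one] at h1
    exact zero_ne_one h1
  have hdet : ∀ c, polar Q a c = 0 → (E c).det ^ 2 = 1 := by
    intro c hc
    have h1 := congrArg Matrix.det (transpose_form_eq (hpres c hc))
    rw [Matrix.det_mul, Matrix.det_mul, Matrix.det_transpose] at h1
    apply mul_right_cancel₀ hdetM
    linear_combination h1
  have hc2 : polar Q a ((2 : F)⁻¹ • c) = 0 := by
    rw [polar_smul_right, hc, smul_zero]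
  have hcc : (2 : F)⁻¹ • c + (2 : F)⁻¹ • c = c := by
    rw [← add_smul, ← two_mul, mul_inv_cancel₀ h2, one_smul]
  have hEE : E c = E ((2 : F)⁻¹ • c) * E ((2 : F)⁻¹ • c) := by
    apply Matrix.ext_of_mulVec_single
    intro i
    rw [← Matrix.mulVec_mulVec, hEv, hEv, hEv, sieg_comp ha hc2 hc2, hcc]
  have hdetE : (E c).det = 1 := by
    rw [hEE, Matrix.det_mul, ← pow_two, hdet _ hc2]
  refine ⟨_, ⟨⟨E c, hdetE⟩, rfl, fun v w => hpres c hc v w⟩, fun v => ?_⟩
  rw [sm_inl]
  exact hEv c v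

theorem Q_of_U {u : GS (Fin n) F} (hu : u ∈ UG G) (v : V) : QQ (mG G) (sm u v) = QQ (mG G) v := by
  obtain ⟨s, rfl, hs⟩ := hu
  rw [sm_inl, QQ_apply, QQ_apply]
  exact hs v v

/-- Consequences of commuting with the graph involution. -/
theorem Q_of_comm (hn : 3 ≤ n) {Y : GS (Fin n) F} (h : piS Y * (conjP G * itP) = (conjP G * itP) * piS Y) {a : V}
    (ha : QQ (mG G) a = 0) : QQ (mG G) (sm Y a) = 0 := by
  obtain ⟨u, hu, h1⟩ := semi_of_comm hn Y h
  rw [QQ_apply, h1, ← QQ_apply, ha, map_zero, mul_zero]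

variable (G) in
/-- The points of the polar geometry. -/
abbrev XS : Set (Set V) := SingLines (QQ (mG G))

theorem finite_XS : Finite (XS G) := Subtype.finite

/-- Transitivity on points not perpendicular to a given one. -/
theorem H1S (hG : (G : Matrix (Fin n) (Fin n) F).transpose = G) (h2 : (2 : F) ≠ 0) :
    ∀ P ∈ XS G, ∀ R ∈ XS G, ∀ R' ∈ XS G, ¬ Pp (QQ (mG G)) P R → ¬ Pp (QQ (mG G)) P R' →
      ∃ u ∈ UG G, u • P = P ∧ u • R = R' := by
  rintro _ ⟨a, ha0, ha, rfl⟩ _ ⟨b, hb0, hb, rfl⟩ _ ⟨b', hb'0, hb', rfl⟩ hab hab'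
  rw [pp_line] at hab hab'
  set Q := QQ (mG G) with hQ
  set b₁ := (polar Q a b)⁻¹ • b with hb₁
  set b₁' := (polar Q a b')⁻¹ • b' with hb₁'
  have h1 : polar Q a b₁ = 1 := by
    rw [hb₁, polar_smul_right, smul_eq_mul, inv_mul_cancel₀ hab]
  have h3 : polar Q a b₁' = 1 := by
    rw [hb₁', polar_smul_right, smul_eq_mul, inv_mul_cancel₀ hab']
  have h4 : Q b₁ = 0 := by rw [hb₁, Q.map_smul, hb, smul_zero]
  have h5 : Q b₁' = 0 := by rw [hb₁', Q.map_smul, hb', smul_zero]
  have h6 : polar Q a (b₁' - b₁) = 0 := by rw [polar_sub_right, h1, h3, sub_self]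
  obtain ⟨u, hu, hsm⟩ := sieg_mem_U hG h2 ha h6
  refine ⟨u, hu, ?_, ?_⟩
  · rw [smul_line, hsm, sieg_self ha h6]
  · have h7 : line F b = line F b₁ := (line_smul (inv_ne_zero hab)).symm
    have h8 : line F b' = line F b₁' := (line_smul (inv_ne_zero hab')).symm
    rw [h7, h8, smul_line, hsm, sieg_move ha h4 h5 h1 h3]

/-- A common partner. -/
theorem H3S (hQ : PolarNondeg (QQ (mG G))) :
    ∀ P ∈ XS G, ∀ R ∈ XS G, Pp (QQ (mG G)) P R → ∃ Z ∈ XS G, ¬ Pp (QQ (mG G)) P Z ∧ ¬ Pp (QQ (mG G)) R Z := by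
  rintro _ ⟨a, ha0, ha, rfl⟩ _ ⟨b, hb0, hb, rfl⟩ hab
  rw [pp_line] at hab
  obtain ⟨z, hz1, hz2, hz3, hz4⟩ := exists_common_partner hQ ha0 hb0 ha hab
  refine ⟨_, ⟨z, hz2, hz1, rfl⟩, ?_, ?_⟩
  · rw [pp_line]
    exact hz3
  · rw [pp_line]
    exact hz4

/-- The perpendicular case in dimension at least five. -/
theorem H2S (hG : (G : Matrix (Fin n) (Fin n) F).transpose = G) (h2 : (2 : F) ≠ 0) (hQ : PolarNondeg (QQ (mG G))) (h5 : 5 ≤ n) :
    ∀ P ∈ XS G, ∀ R ∈ XS G, R ≠ P → Pp (QQ (mG G)) P R → ∃ u ∈ UG G, u • P = P ∧ ¬ Pp (QQ (mG G)) R (u • R) := by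
  rintro _ ⟨a, ha0, ha, rfl⟩ _ ⟨b, hb0, hb, rfl⟩ hne hab
  rw [pp_line] at hab
  set Q := QQ (mG G) with hQdef
  have hind : b ∉ Submodule.span F {a} := by
    intro h
    apply hne
    obtain ⟨k, hk⟩ := Submodule.mem_span_singleton.1 h
    exact line_eq_of_mem hb0 ⟨k, hk⟩
  obtain ⟨a', ha'1, ha'2, ha'3⟩ := exists_perp_singular_partner hQ ha0 hb hab hind
  obtain ⟨c', hc'1, hc'2, hc'3⟩ := exists_nonsingular_perp hQ (by simpa using h5) a a'
  obtain ⟨u, hu, hsm⟩ := sieg_mem_U hG h2 ha'1 hc'2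
  refine ⟨u, hu, ?_, ?_⟩
  · rw [smul_line, hsm]
    have h6 : siegFun Q a' c' a = a := by
      simp [siegFun, ha'2, hc'1]
    rw [h6]
  · rw [smul_line, hsm, pp_line, polar_sieg_self ha'1 hc'2 hb ha'3]
    exact neg_ne_zero.2 hc'3

/-- Moving inside a totally singular plane. -/
theorem exists_plane_move (hG : (G : Matrix (Fin n) (Fin n) F).transpose = G) (h2 : (2 : F) ≠ 0) (hQ : PolarNondeg (QQ (mG G)))
    {a b : V} (ha0 : a ≠ 0) (ha : QQ (mG G) a = 0) (hb : QQ (mG G) b = 0) (hab : polar (QQ (mG G)) a b = 0)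
    (hind : b ∉ Submodule.span F {a}) (t : F) :
    ∃ u ∈ UG G, sm u a = a ∧ sm u b = b + t • a := by
  obtain ⟨w, hw1, hw2, hw3⟩ := exists_perp_singular_partner hQ ha0 hb hab hind
  have hc : polar (QQ (mG G)) w (t • a) = 0 := by
    rw [polar_smul_right, polar_comm, hw2, smul_zero]
  obtain ⟨u, hu, hsm⟩ := sieg_mem_U hG h2 hw1 hc
  obtain ⟨h1, h3⟩ := sieg_plane ha hab hw2 hw3 t
  exact ⟨u, hu, by rw [hsm, h1], by rw [hsm, h3]⟩

/-- The plane spanned by two singular perpendicular vectors has `|F| + 1` lines. -/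
noncomputable def planeF (a b : V) : Option F → Set V
  | none => line F a
  | some t => line F (b + t • a)

theorem card_plane {a b : V} (ha0 : a ≠ 0) (hind : b ∉ Submodule.span F {a}) :
    Nat.card (Set.range (planeF a b)) = Nat.card F + 1 := by
  classical
  have hinj : Function.Injective (planeF a b) := by
    have h1 : ∀ t : F, line F a ≠ line F (b + t • a) := by
      intro t h
      have h3 : a ∈ line F (b + t • a) := by
        rw [← h]
        exact self_mem_line a
      obtain ⟨k, hk⟩ := h3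
      have hk' : k • (b + t • a) = a := hk
      have hk0 : k ≠ 0 := by
        rintro rfl
        rw [zero_smul] at hk'
        exact ha0 hk'.symm
      apply hind
      rw [Submodule.mem_span_singleton]
      refine ⟨k⁻¹ - t, ?_⟩
      have h4 : b + t • a = k⁻¹ • a := by
        calc b + t • a = k⁻¹ • (k • (b + t • a)) := by rw [smul_smul, inv_mul_cancel₀ hk0, one_smul]
          _ = k⁻¹ • a := by rw [hk']
      rw [sub_smul, ← h4]
      abel
    rintro (_ | s) (_ | s') h
    · rfl
    · exact absurd h (h1 s')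
    · exact absurd h.symm (h1 s)
    · have h3 : b + s' • a ∈ line F (b + s • a) := by
        have h4 : planeF a b (some s) = line F (b + s • a) := rfl
        have h5 : planeF a b (some s') = line F (b + s' • a) := rfl
        rw [← h4, h, h5]
        exact self_mem_line _
      obtain ⟨k, hk⟩ := h3
      have hk' : k • (b + s • a) = b + s' • a := hk
      by_cases hk1 : k = 1
      · subst hk1
        rw [one_smul] at hk'
        have h4 : s • a = s' • a := add_left_cancel hk'
        have h5 : s = s' := smul_left_injective F ha0 h4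
        rw [h5]
      · exfalso
        apply hind
        rw [Submodule.mem_span_singleton]
        refine ⟨(k - 1)⁻¹ * (s' - k * s), ?_⟩
        have h4 : (k - 1) • b = (s' - k * s) • a := by
          rw [smul_add, smul_smul] at hk'
          rw [sub_smul, one_smul, sub_smul]
          have h5 : k • b = b + s' • a - (k * s) • a := by
            rw [← hk']
            abel
          rw [h5]
          abel
        have hk2 : k - 1 ≠ 0 := sub_ne_zero.2 hk1
        rw [mul_smul, ← h4, smul_smul, inv_mul_cancel₀ hk2, one_smul]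
  rw [Nat.card_range_of_injective hinj, Finite.card_option]

/-- In small dimension a singular vector perpendicular to a totally singular plane lies in it. -/
theorem mem_plane_of_perp {Q : QuadraticForm F V} (hQ : PolarNondeg Q) (hn5 : n ≤ 5) {a b s : V} (ha0 : a ≠ 0) (ha : Q a = 0) (hb : Q b = 0)
    (hs : Q s = 0) (hind : b ∉ Submodule.span F {a}) (hab : polar Q a b = 0) (has : polar Q a s = 0) (hbs : polar Q b s = 0) :
    ∃ α β : F, s = α • a + β • b := by
  classical
  set W₀ := Submodule.span F {a} with hW₀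
  have hT₀ : IsTS Q W₀ := by
    intro w hw
    obtain ⟨k, rfl⟩ := Submodule.mem_span_singleton.1 hw
    rw [Q.map_smul, ha, smul_zero]
  set W₁ := W₀ ⊔ Submodule.span F {b} with hW₁
  have hT₁ : IsTS Q W₁ := hT₀.sup_span hb (by
    intro u hu
    obtain ⟨k, rfl⟩ := Submodule.mem_span_singleton.1 hu
    rw [polar_smul_left, hab, smul_zero])
  by_cases hsW : s ∈ W₁
  · obtain ⟨x, hx, y, hy, rfl⟩ := Submodule.mem_sup.1 hsW
    obtain ⟨α, rfl⟩ := Submodule.mem_span_singleton.1 hx
    obtain ⟨β, rfl⟩ := Submodule.mem_span_singleton.1 hy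
    exact ⟨α, β, rfl⟩
  · exfalso
    set W₂ := W₁ ⊔ Submodule.span F {s} with hW₂
    have hT₂ : IsTS Q W₂ := hT₁.sup_span hs (by
      intro u hu
      obtain ⟨x, hx, y, hy, rfl⟩ := Submodule.mem_sup.1 hu
      obtain ⟨α, rfl⟩ := Submodule.mem_span_singleton.1 hx
      obtain ⟨β, rfl⟩ := Submodule.mem_span_singleton.1 hy
      rw [polar_add_left, polar_smul_left, polar_smul_left, has, hbs]
      simp)
    have h1 : W₀ < W₁ := by
      apply lt_of_le_of_ne le_sup_left
      intro h
      apply hind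
      have h3 : b ∈ W₀ ⊔ Submodule.span F {b} := Submodule.mem_sup_right (Submodule.mem_span_singleton_self b)
      rwa [← h] at h3
    have h2 : W₁ < W₂ := by
      apply lt_of_le_of_ne le_sup_left
      intro h
      apply hsW
      have h3 : s ∈ W₁ ⊔ Submodule.span F {s} := Submodule.mem_sup_right (Submodule.mem_span_singleton_self s)
      rwa [← h] at h3
    have h3 := Submodule.finrank_lt_finrank_of_lt h1
    have h4 := Submodule.finrank_lt_finrank_of_lt h2
    have h5 : Module.finrank F W₀ = 1 := finrank_span_singleton ha0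
    have h6 := IsTS.two_mul_finrank_le hQ hT₂
    have h7 : Module.finrank F V = n := by simp
    omega

theorem odd_card_F (h2 : (2 : F) ≠ 0) : Odd (Nat.card F) := by
  rw [Nat.card_eq_fintype_card, Nat.odd_iff]
  apply FiniteField.odd_card_of_char_ne_two
  intro h
  apply h2
  have h3 := ringChar.Nat.cast_ringChar (R := F)
  rw [h] at h3
  exact_mod_cast h3

/-- **Balance for the orthogonal graph involutions.** -/
theorem sym_main (hn : 3 ≤ n) (h2 : (2 : F) ≠ 0) (hG : (G : Matrix (Fin n) (Fin n) F).transpose = G)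
    (C L : Subgroup (MulAut Pn)) (hLx : ∀ α ∈ L, α * (conjP G * itP) = (conjP G * itP) * α)
    (hCs : ∀ k : Pn, MulAut.conj k * (conjP G * itP) = (conjP G * itP) * MulAut.conj k → MulAut.conj k ∈ C)
    (hLn : ∀ c ∈ C, ∀ y ∈ L, c * y * c⁻¹ ∈ L) (hodd : Odd (Nat.card L))
    (hLcf : ∀ α ∈ L, ∃ (A : GL (Fin n) F) (τ : F ≃+* F), α = conjP A * fieldP τ) : L = ⊥ := by
  classical
  have hn2 : 2 ≤ n := by omega
  have hQ : PolarNondeg (QQ (mG G)) := nondeg_QQ (mG_symm hG) h2 (N := (G : Matrix (Fin n) (Fin n) F)) mG_mul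
  set Q := QQ (mG G) with hQdef
  set Lt := L.comap (piS (n := n) (F := F)) with hLt
  haveI hfin : Finite (XS G) := finite_XS
  have hLX : ∀ l ∈ Lt, ∀ P ∈ XS G, l • P ∈ XS G := by
    rintro l hl _ ⟨a, ha0, ha, rfl⟩
    exact ⟨sm l a, sm_ne_zero l ha0, Q_of_comm hn (hLx _ hl) ha, smul_line l a⟩
  have hUX : ∀ u ∈ UG G, ∀ P ∈ XS G, u • P ∈ XS G := by
    rintro u hu _ ⟨a, ha0, ha, rfl⟩
    refine ⟨sm u a, sm_ne_zero u ha0, ?_, smul_line u a⟩
    rw [Q_of_U hu]
    exact ha
  have hsymm : ∀ P R, Pp Q P R → Pp Q R P := by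
    intro P R h x hx y hy
    rw [polar_comm]
    exact h y hy x hx
  have hUn := UG_normal (G := G) C L hCs hLn
  have hoddO : ∀ P ∈ XS G, Odd (Nat.card (MulAction.orbit Lt P)) := by
    rintro _ ⟨a, -, -, rfl⟩
    exact odd_orbit_S hn2 L hodd a
  have hH4 : Even (Nat.card (XS G)) := even_lines Q h2 hQ
  have hfix : ∀ l ∈ Lt, ∀ P ∈ XS G, l • P = P := by
    by_cases h5 : 5 ≤ n
    · exact Cfsg.Agent.Lib.Classical.OrthAut.BalA.block_trivial (XS G) Lt hLX (Pp Q) hsymm (UG G) hUX hUn hoddO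
        (H1S hG h2) (H2S hG h2 hQ h5) (H3S hQ) hH4
    · have hcl := block_clique (XS G) Lt hLX (Pp Q) hsymm (UG G) hUX hUn hoddO (H1S hG h2) (H3S hQ) hH4
      rintro l hl _ ⟨a, ha0, ha, rfl⟩
      by_contra hne
      set b := sm l a with hb
      have hlR : l • line F a = line F b := smul_line l a
      rw [hlR] at hne
      have hb0 : b ≠ 0 := sm_ne_zero l ha0
      have hQb : Q b = 0 := Q_of_comm hn (hLx _ hl) ha
      have hab : polar Q a b = 0 := by
        have h3 := hcl l hl _ ⟨a, ha0, ha, rfl⟩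
        rw [hlR, pp_line] at h3
        exact h3
      have hind : b ∉ Submodule.span F {a} := by
        intro h
        apply hne
        obtain ⟨k, hk⟩ := Submodule.mem_span_singleton.1 h
        exact line_eq_of_mem hb0 ⟨k, hk⟩
      have hO : MulAction.orbit Lt (line F a) = Set.range (planeF a b) := by
        apply Set.Subset.antisymm
        · rintro _ ⟨⟨l', hl'⟩, rfl⟩
          change l' • line F a ∈ _
          rw [smul_line]
          set s := sm l' a with hs
          have hs0 : s ≠ 0 := sm_ne_zero l' ha0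
          have hQs : Q s = 0 := Q_of_comm hn (hLx _ hl') ha
          have has : polar Q a s = 0 := by
            have h3 := hcl l' hl' _ ⟨a, ha0, ha, rfl⟩
            rw [smul_line, pp_line] at h3
            exact h3
          have hbs : polar Q b s = 0 := by
            have h3 := hcl (l' * l⁻¹) (Lt.mul_mem hl' (Lt.inv_mem hl)) _ ⟨b, hb0, hQb, rfl⟩
            have h4 : (l' * l⁻¹) • line F b = line F s := by
              rw [← hlR, mul_smul, inv_smul_smul, smul_line]
            rw [h4, pp_line] at h3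
            exact h3
          obtain ⟨α, β, hαβ⟩ := mem_plane_of_perp hQ (by omega) ha0 ha hQb hQs hind hab has hbs
          by_cases hβ : β = 0
          · refine ⟨none, ?_⟩
            subst hβ
            rw [zero_smul, add_zero] at hαβ
            have hα : α ≠ 0 := by
              rintro rfl
              rw [zero_smul] at hαβ
              exact hs0 hαβ
            rw [hαβ]
            exact (line_smul hα).symm
          · refine ⟨some (α / β), ?_⟩
            have h3 : s = β • (b + (α / β) • a) := by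
              rw [hαβ, smul_add, smul_smul, mul_div_cancel₀ _ hβ, add_comm]
            rw [h3]
            exact (line_smul hβ).symm
        · rintro _ ⟨_ | t, rfl⟩
          · exact MulAction.mem_orbit_self _
          · obtain ⟨u, hu, hu1, hu2⟩ := exists_plane_move hG h2 hQ ha0 ha hQb hab hind t
            have h3 : u • line F b ∈ MulAction.orbit Lt (line F a) :=
              orbit_inv Lt (line F a) (hUn u hu) (by rw [smul_line, hu1]) ⟨⟨l, hl⟩, hlR⟩
            rw [smul_line, hu2] at h3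
            exact h3
      have h3 := hoddO (line F a) ⟨a, ha0, ha, rfl⟩
      rw [hO, card_plane ha0 hind] at h3
      exact (Nat.not_even_iff_odd.2 h3) (Odd.add_one (odd_card_F h2))
  rw [Subgroup.eq_bot_iff_forall]
  intro α hα
  obtain ⟨A, τ, rfl⟩ := hLcf α hα
  set Y : GS (Fin n) F := ⟨A, τ⟩ with hY
  have hYα : piS Y = conjP A * fieldP τ := rfl
  rw [← hYα]
  have hYL : Y ∈ Lt := by
    rw [hLt, Subgroup.mem_comap, hYα]
    exact hα
  apply piS_eq_one_of_eig hn h2 Q hQ Y
  intro v hv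
  by_cases hv0 : v = 0
  · subst hv0
    exact ⟨0, by rw [sm_zero, zero_smul]⟩
  · have h1 := hfix Y hYL _ ⟨v, hv0, hv, rfl⟩
    rw [smul_line] at h1
    have h3 : sm Y v ∈ line F v := by
      rw [← h1]
      exact self_mem_line _
    obtain ⟨k, hk⟩ := h3
    exact ⟨k, hk.symm⟩

end Main

end Cfsg.Agent.Lib.Classical.PslBal.Sym
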