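import Mathlib
import Cfsg.Agent.Lib.Classical.PslBal.Sym

/-!
# Local balance for `PSL`: symplectic graph involutions
-/

set_option autoImplicit false
set_option linter.unusedSectionVars false
set_option linter.unusedVariables false
set_option linter.unusedSimpArgs false
set_option linter.style.haveILetI false

open scoped Matrix MatrixGroups
open QuadraticMap
open Cfsg
open Cfsg.Agent.Lib.Classical.Herm.Descent Cfsg.Agent.Lib.Classical.Herm.GLDescent
open Cfsg.Agent.Lib.Classical.Herm.PSLGraphField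
open Cfsg.Agent.Lib.Linalg.AutPSLBasic Cfsg.Agent.Lib.Linalg.AutPSLStd Cfsg.Agent.Lib.Linalg.AutPSLCount
open Cfsg.Agent.Lib.Linalg.AutPSLMain
open Cfsg.Agent.Lib.Classical.PslBal.Fld Cfsg.Agent.Lib.Classical.PslBal.Blk Cfsg.Agent.Lib.Classical.PslBal.Sym
open Cfsg.Agent.Lib.Classical.OrthAut.BalB
open Cfsg.Agent.Lib.Classical.Witt.Hyp Cfsg.Agent.Lib.Classical.Witt.TS
open Cfsg.Agent.Lib.Classical.Orth.Semi (GS sm sm_def sm_mul sm_one sm_add sm_smul sm_zero sm_inv_sm sm_sm_inv phi)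

namespace Cfsg.Agent.Lib.Classical.PslBal.Alt

section Form

variable {n : ℕ} {F : Type*} [Field F]

local notation "V" => (Fin n → F)

/-- The bilinear form of a matrix. -/
noncomputable def Bf (M : Matrix (Fin n) (Fin n) F) (v w : V) : F := v ⬝ᵥ (M *ᵥ w)

variable {M : Matrix (Fin n) (Fin n) F}

theorem Bf_add_left (u v w : V) : Bf M (u + v) w = Bf M u w + Bf M v w := add_dotProduct _ _ _
theorem Bf_add_right (u v w : V) : Bf M u (v + w) = Bf M u v + Bf M u w := by
  rw [Bf, Matrix.mulVec_add, dotProduct_add]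
  rfl
theorem Bf_smul_left (c : F) (v w : V) : Bf M (c • v) w = c * Bf M v w := smul_dotProduct _ _ _
theorem Bf_smul_right (c : F) (v w : V) : Bf M v (c • w) = c * Bf M v w := by
  rw [Bf, Matrix.mulVec_smul, dotProduct_smul]
  rfl
theorem Bf_sub_right (u v w : V) : Bf M u (v - w) = Bf M u v - Bf M u w := by
  rw [Bf, Matrix.mulVec_sub, dotProduct_sub]
  rfl

theorem Bf_skew (hM : M.transpose = -M) (v w : V) : Bf M v w = - Bf M w v := by
  rw [Bf, Bf, Matrix.dotProduct_mulVec, ← Matrix.mulVec_transpose, hM, Matrix.neg_mulVec, neg_dotProduct, dotProduct_comm]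

theorem Bf_self (hM : M.transpose = -M) (h2 : (2 : F) ≠ 0) (v : V) : Bf M v v = 0 := by
  have h1 := Bf_skew hM v v
  have h3 : (2 : F) * Bf M v v = 0 := by linear_combination h1
  exact (mul_eq_zero.1 h3).resolve_left h2

/-- Nondegeneracy. -/
def BfNd (M : Matrix (Fin n) (Fin n) F) : Prop := ∀ x : V, (∀ y, Bf M x y = 0) → x = 0

theorem bfNd_of {N : Matrix (Fin n) (Fin n) F} (hN : M * N = 1) : BfNd M := by
  intro x hx
  apply eq_zero_of_dot
  intro z
  have h1 := hx (N *ᵥ z)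
  rwa [Bf, Matrix.mulVec_mulVec, hN, Matrix.one_mulVec] at h1

theorem exists_ne (hM : BfNd M) {a : V} (ha : a ≠ 0) : ∃ w, Bf M a w = 1 := by
  obtain ⟨y, hy⟩ : ∃ y, Bf M a y ≠ 0 := by
    by_contra hcon
    push Not at hcon
    exact ha (hM a hcon)
  refine ⟨(Bf M a y)⁻¹ • y, ?_⟩
  rw [Bf_smul_right, inv_mul_cancel₀ hy]

/-- Separating two independent functionals. -/
theorem exists_sepB (hM : BfNd M) {a b : V} (ha : a ≠ 0) (hb : b ∉ Submodule.span F {a}) :
    ∃ w, Bf M a w = 0 ∧ Bf M b w = 1 := by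
  obtain ⟨w₀, hw₀⟩ := exists_ne hM ha
  by_contra hcon
  push Not at hcon
  have h1 : ∀ w, Bf M a w = 0 → Bf M b w = 0 := by
    intro w hw
    by_contra hne
    apply hcon ((Bf M b w)⁻¹ • w)
    · rw [Bf_smul_right, hw, mul_zero]
    · rw [Bf_smul_right, inv_mul_cancel₀ hne]
  apply hb
  rw [Submodule.mem_span_singleton]
  refine ⟨Bf M b w₀, ?_⟩
  symm
  rw [← sub_eq_zero]
  apply hM
  intro y
  have h2 := h1 (y - Bf M a y • w₀) (by
    rw [Bf_sub_right, Bf_smul_right, hw₀, mul_one, sub_self])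
  rw [Bf_sub_right, Bf_smul_right] at h2
  have h3 : Bf M (b - Bf M b w₀ • a) y = Bf M b y - Bf M b w₀ * Bf M a y := by
    rw [sub_eq_add_neg, Bf_add_left, ← neg_smul, Bf_smul_left]
    ring
  rw [h3]
  linear_combination h2

/-- A vector not perpendicular to two given nonzero vectors. -/
theorem exists_common (hM : BfNd M) {a r : V} (ha0 : a ≠ 0) (hr0 : r ≠ 0) : ∃ w, Bf M a w ≠ 0 ∧ Bf M r w ≠ 0 := by
  obtain ⟨w₁, hw₁⟩ := exists_ne hM ha0
  obtain ⟨w₂, hw₂⟩ := exists_ne hM hr0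
  by_cases h1 : Bf M r w₁ = 0
  · by_cases h3 : Bf M a w₂ = 0
    · refine ⟨w₁ + w₂, ?_, ?_⟩
      · rw [Bf_add_right, hw₁, h3, add_zero]
        exact one_ne_zero
      · rw [Bf_add_right, h1, hw₂, zero_add]
        exact one_ne_zero
    · exact ⟨w₂, h3, by rw [hw₂]; exact one_ne_zero⟩
  · exact ⟨w₁, by rw [hw₁]; exact one_ne_zero, h1⟩

/-- Perpendicularity of sets. -/
def Pb (M : Matrix (Fin n) (Fin n) F) (S R : Set V) : Prop := ∀ x ∈ S, ∀ y ∈ R, Bf M x y = 0

theorem pb_line {a b : V} : Pb M (line F a) (line F b) ↔ Bf M a b = 0 := by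
  constructor
  · intro h
    exact h a (self_mem_line a) b (self_mem_line b)
  · rintro h _ ⟨k, rfl⟩ _ ⟨k', rfl⟩
    simp only [Bf_smul_left, Bf_smul_right, h, mul_zero]

end Form

section Count

variable {n : ℕ} {F : Type*} [Field F] [Fintype F]

local notation "V" => (Fin n → F)

theorem even_sum_pow {q : ℕ} (hq : Odd q) (m : ℕ) : Even (∑ i ∈ Finset.range (2 * m), q ^ i) := by
  induction m with
  | zero => simp
  | succ m ih =>
    rw [show 2 * (m + 1) = 2 * m + 1 + 1 by ring, Finset.sum_range_succ, Finset.sum_range_succ, add_assoc]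
    apply ih.add
    rw [pow_succ q (2 * m)]
    have h1 : q ^ (2 * m) + q ^ (2 * m) * q = q ^ (2 * m) * (q + 1) := by ring
    rw [h1]
    exact Even.mul_left (Odd.add_one hq) _

/-- The set of all lines. -/
def XL (n : ℕ) (F : Type*) [Field F] : Set (Set (Fin n → F)) := {S | ∃ a : Fin n → F, a ≠ 0 ∧ S = line F a}

theorem even_XL (h2 : (2 : F) ≠ 0) {m : ℕ} (hm : n = 2 * m) : Even (Nat.card (XL n F)) := by
  classical
  have h1 : XL n F = Set.range (fun p : Projectivization F V => (p.submodule : Set V)) := by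
    ext S
    constructor
    · rintro ⟨a, ha, rfl⟩
      refine ⟨Projectivization.mk F a ha, ?_⟩
      ext v
      simp only [Projectivization.submodule_mk, SetLike.mem_coe]
      exact ⟨fun h => mem_line_of_mem_span h, fun h => mem_span_of_mem_line h⟩
    · rintro ⟨p, rfl⟩
      refine ⟨p.rep, p.rep_nonzero, ?_⟩
      ext v
      conv_lhs => rw [← Projectivization.mk_rep p]
      simp only [Projectivization.submodule_mk, SetLike.mem_coe]
      exact ⟨fun h => mem_line_of_mem_span h, fun h => mem_span_of_mem_line h⟩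
  have hinj : Function.Injective (fun p : Projectivization F V => (p.submodule : Set V)) := by
    intro p p' h
    exact Projectivization.submodule_injective (SetLike.coe_injective h)
  rw [h1, Nat.card_range_of_injective hinj, Projectivization.card_of_finrank F V (n := n) (by simp), hm]
  exact even_sum_pow (odd_card_F h2) m

end Count

section Main

variable {n : ℕ} {F : Type*} [Field F] [Fintype F]

local notation "Pn" => Matrix.ProjectiveSpecialLinearGroup (Fin n) F
local notation "V" => (Fin n → F)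

attribute [local instance] actS

variable {G : GL (Fin n) F}

theorem mG_skew (hG : (G : Matrix (Fin n) (Fin n) F).transpose = -(G : Matrix (Fin n) (Fin n) F)) : (mG G).transpose = - mG G := by
  have h1 : (-(mG G).transpose) * (G : Matrix (Fin n) (Fin n) F) = 1 := by
    have h2 := congrArg Matrix.transpose (mul_mG (G := G))
    rw [Matrix.transpose_mul, Matrix.transpose_one, hG] at h2
    rw [Matrix.neg_mul, ← Matrix.mul_neg, h2]
  have h3 : -(mG G).transpose = mG G := by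
    calc -(mG G).transpose = (-(mG G).transpose) * ((G : Matrix (Fin n) (Fin n) F) * mG G) := by rw [mul_mG, Matrix.mul_one]
      _ = _ := by rw [← Matrix.mul_assoc, h1, Matrix.one_mul]
  exact neg_eq_iff_eq_neg.1 h3

theorem even_of_skew (h2 : (2 : F) ≠ 0) (hG : (G : Matrix (Fin n) (Fin n) F).transpose = -(G : Matrix (Fin n) (Fin n) F)) : ∃ m, n = 2 * m := by
  have hdet : (G : Matrix (Fin n) (Fin n) F).det ≠ 0 := by
    intro h0
    have h1 := congrArg Matrix.det (mul_mG (G := G))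
    rw [Matrix.det_mul, h0, zero_mul, Matrix.det_one] at h1
    exact zero_ne_one h1
  have h1 := congrArg Matrix.det hG
  rw [Matrix.det_transpose, Matrix.det_neg, Fintype.card_fin] at h1
  rcases Nat.even_or_odd n with h | h
  · obtain ⟨m, hm⟩ := h
    exact ⟨m, by omega⟩
  · exfalso
    rw [h.neg_one_pow] at h1
    apply hdet
    have h3 : (2 : F) * (G : Matrix (Fin n) (Fin n) F).det = 0 := by linear_combination h1
    exact (mul_eq_zero.1 h3).resolve_left h2

/-- The symplectic transvection. -/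
theorem tvA_mem_U (hM : (mG G).transpose = - mG G) (h2 : (2 : F) ≠ 0) (w : V) (c : F) :
    ∃ u ∈ UG G, ∀ v, sm u v = v + (c * Bf (mG G) v w) • w := by
  have hw : (mG G *ᵥ w) ⬝ᵥ w = 0 := by
    rw [dotProduct_comm]
    exact Bf_self hM h2 w
  have hact : ∀ v : V, ((rt w (mG G *ᵥ w) hw c : Matrix.SpecialLinearGroup (Fin n) F) : Matrix (Fin n) (Fin n) F) *ᵥ v = v + (c * Bf (mG G) v w) • w := by
    intro v
    change ((1 : Matrix (Fin n) (Fin n) F) + c • Matrix.vecMulVec w (mG G *ᵥ w)) *ᵥ v = _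
    rw [Matrix.add_mulVec, Matrix.one_mulVec, Matrix.smul_mulVec, Matrix.vecMulVec_mulVec]
    congr 1
    rw [mul_smul]
    simp only [op_smul_eq_smul, Bf]
    rw [dotProduct_comm v]
  refine ⟨_, ⟨rt w (mG G *ᵥ w) hw c, rfl, fun v v' => ?_⟩, fun v => ?_⟩
  · have e : ∀ x y : V, x ⬝ᵥ (mG G *ᵥ y) = Bf (mG G) x y := fun _ _ => rfl
    rw [hact, hact, e, e, Bf_add_left, Bf_add_right, Bf_add_right, Bf_smul_left, Bf_smul_right, Bf_smul_right, Bf_smul_left,
      Bf_self hM h2 w, Bf_skew hM w v']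
    ring
  · rw [sm_inl]
    exact hact v

/-- Moving a partner to another one, when they are not perpendicular. -/
theorem one_step (hM : (mG G).transpose = - mG G) (h2 : (2 : F) ≠ 0) {a p p' : V} (hp : Bf (mG G) a p = 1) (hp' : Bf (mG G) a p' = 1)
    (hpp : Bf (mG G) p p' ≠ 0) : ∃ u ∈ UG G, sm u a = a ∧ sm u p = p' := by
  obtain ⟨u, hu, hs⟩ := tvA_mem_U hM h2 (p' - p) (Bf (mG G) p p')⁻¹
  refine ⟨u, hu, ?_, ?_⟩
  · rw [hs, Bf_sub_right, hp, hp', sub_self, mul_zero, zero_smul, add_zero]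
  · rw [hs, Bf_sub_right, Bf_self hM h2 p, sub_zero, inv_mul_cancel₀ hpp, one_smul]
    abel

theorem two_step (hM : (mG G).transpose = - mG G) (h2 : (2 : F) ≠ 0) (hnd : BfNd (mG G)) {a p p' : V} (ha0 : a ≠ 0) (hp : Bf (mG G) a p = 1)
    (hp' : Bf (mG G) a p' = 1) : ∃ u ∈ UG G, sm u a = a ∧ sm u p = p' := by
  by_cases hpp : Bf (mG G) p p' = 0
  · have hind : ∀ {x : V}, Bf (mG G) a x = 1 → x ∉ Submodule.span F {a} := by
      intro x hx h
      obtain ⟨k, rfl⟩ := Submodule.mem_span_singleton.1 h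
      rw [Bf_smul_right, Bf_self hM h2 a, mul_zero] at hx
      exact zero_ne_one hx
    obtain ⟨z₁, hz₁, hz₁'⟩ := exists_sepB hnd ha0 (hind hp)
    obtain ⟨z₂, hz₂, hz₂'⟩ := exists_sepB hnd ha0 (hind hp')
    obtain ⟨z, hz, hz1, hz2⟩ : ∃ z, Bf (mG G) a z = 0 ∧ Bf (mG G) p z ≠ 0 ∧ Bf (mG G) p' z ≠ 0 := by
      by_cases h3 : Bf (mG G) p' z₁ = 0
      · by_cases h4 : Bf (mG G) p z₂ = 0
        · refine ⟨z₁ + z₂, ?_, ?_, ?_⟩
          · rw [Bf_add_right, hz₁, hz₂, add_zero]
          · rw [Bf_add_right, hz₁', h4, add_zero]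
            exact one_ne_zero
          · rw [Bf_add_right, h3, hz₂', zero_add]
            exact one_ne_zero
        · exact ⟨z₂, hz₂, h4, by rw [hz₂']; exact one_ne_zero⟩
      · exact ⟨z₁, hz₁, by rw [hz₁']; exact one_ne_zero, h3⟩
    have hq : Bf (mG G) a (p + z) = 1 := by rw [Bf_add_right, hp, hz, add_zero]
    have h5 : Bf (mG G) p (p + z) ≠ 0 := by
      rw [Bf_add_right, Bf_self hM h2 p, zero_add]
      exact hz1
    have h6 : Bf (mG G) (p + z) p' ≠ 0 := by
      rw [Bf_add_left, hpp, zero_add, Bf_skew hM z p']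
      exact neg_ne_zero.2 hz2
    obtain ⟨u₁, hu₁, h7, h8⟩ := one_step hM h2 hp hq h5
    obtain ⟨u₂, hu₂, h9, h10⟩ := one_step hM h2 hq hp' h6
    exact ⟨u₂ * u₁, UG_mul hu₂ hu₁, by rw [sm_mul, h7, h9], by rw [sm_mul, h8, h10]⟩
  · exact one_step hM h2 hp hp' hpp

/-- **Balance for the symplectic graph involutions.** -/
theorem alt_main (hn : 3 ≤ n) (h2 : (2 : F) ≠ 0) (hG : (G : Matrix (Fin n) (Fin n) F).transpose = -(G : Matrix (Fin n) (Fin n) F))
    (C L : Subgroup (MulAut Pn))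
    (hCs : ∀ k : Pn, MulAut.conj k * (conjP G * itP) = (conjP G * itP) * MulAut.conj k → MulAut.conj k ∈ C)
    (hLn : ∀ c ∈ C, ∀ y ∈ L, c * y * c⁻¹ ∈ L) (hodd : Odd (Nat.card L))
    (hLcf : ∀ α ∈ L, ∃ (A : GL (Fin n) F) (τ : F ≃+* F), α = conjP A * fieldP τ) : L = ⊥ := by
  classical
  have hn2 : 2 ≤ n := by omega
  have hM := mG_skew hG
  have hnd : BfNd (mG G) := bfNd_of (N := (G : Matrix (Fin n) (Fin n) F)) mG_mul
  set Lt := L.comap (piS (n := n) (F := F)) with hLt
  haveI hfin : Finite (XL n F) := Subtype.finite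
  have hlinek : ∀ {a : V} {Y : GS (Fin n) F}, a ≠ 0 → Y • line F a ∈ XL n F := by
    intro a Y ha
    exact ⟨sm Y a, sm_ne_zero Y ha, smul_line Y a⟩
  have hfix : ∀ l ∈ Lt, ∀ P ∈ XL n F, l • P = P := by
    obtain ⟨m, hm⟩ := even_of_skew h2 hG
    apply Cfsg.Agent.Lib.Classical.OrthAut.BalA.block_trivial (XL n F) Lt ?_ (Pb (mG G)) ?_ (UG G) ?_ (UG_normal (G := G) C L hCs hLn) ?_ ?_ ?_ ?_ (even_XL h2 hm)
    · rintro l hl _ ⟨a, ha, rfl⟩
      exact hlinek ha
    · intro P R h x hx y hy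
      rw [Bf_skew hM]
      rw [h y hy x hx, neg_zero]
    · rintro u hu _ ⟨a, ha, rfl⟩
      exact hlinek ha
    · rintro _ ⟨a, -, rfl⟩
      exact odd_orbit_S hn2 L hodd a
    · rintro _ ⟨a, ha0, rfl⟩ _ ⟨b, hb0, rfl⟩ _ ⟨b', hb'0, rfl⟩ hab hab'
      rw [pb_line] at hab hab'
      set b₁ := (Bf (mG G) a b)⁻¹ • b with hb₁
      set b₁' := (Bf (mG G) a b')⁻¹ • b' with hb₁'
      have h1 : Bf (mG G) a b₁ = 1 := by
        rw [hb₁, Bf_smul_right, inv_mul_cancel₀ hab]
      have h3 : Bf (mG G) a b₁' = 1 := by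
        rw [hb₁', Bf_smul_right, inv_mul_cancel₀ hab']
      obtain ⟨u, hu, h4, h5⟩ := two_step hM h2 hnd ha0 h1 h3
      refine ⟨u, hu, ?_, ?_⟩
      · rw [smul_line, h4]
      · have h7 : line F b = line F b₁ := (line_smul (inv_ne_zero hab)).symm
        have h8 : line F b' = line F b₁' := (line_smul (inv_ne_zero hab')).symm
        rw [h7, h8, smul_line, h5]
    · rintro _ ⟨a, ha0, rfl⟩ _ ⟨b, hb0, rfl⟩ hne hab
      rw [pb_line] at hab
      have hind : b ∉ Submodule.span F {a} := by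
        intro h
        apply hne
        obtain ⟨k, hk⟩ := Submodule.mem_span_singleton.1 h
        exact line_eq_of_mem hb0 ⟨k, hk⟩
      obtain ⟨z, hz1, hz2⟩ := exists_sepB hnd ha0 hind
      obtain ⟨u, hu, hs⟩ := tvA_mem_U hM h2 z 1
      refine ⟨u, hu, ?_, ?_⟩
      · rw [smul_line, hs, hz1, mul_zero, zero_smul, add_zero]
      · rw [smul_line, pb_line, hs, hz2, mul_one, one_smul, Bf_add_right, Bf_self hM h2 b, hz2, zero_add]
        exact one_ne_zero
    · rintro _ ⟨a, ha0, rfl⟩ _ ⟨b, hb0, rfl⟩ hab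
      obtain ⟨z, hz1, hz2⟩ := exists_common hnd ha0 hb0
      have hz0 : z ≠ 0 := by
        rintro rfl
        apply hz1
        rw [Bf, Matrix.mulVec_zero, dotProduct_zero]
      refine ⟨_, ⟨z, hz0, rfl⟩, ?_, ?_⟩
      · rw [pb_line]
        exact hz1
      · rw [pb_line]
        exact hz2
  rw [Subgroup.eq_bot_iff_forall]
  intro α hα
  obtain ⟨A, τ, rfl⟩ := hLcf α hα
  set Y : GS (Fin n) F := ⟨A, τ⟩ with hY
  have hYα : piS Y = conjP A * fieldP τ := rfl
  rw [← hYα]
  have hYL : Y ∈ Lt := by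
    rw [hLt, Subgroup.mem_comap, hYα]
    exact hα
  apply piS_eq_one_of_eig hn h2 (QQ (1 : Matrix (Fin n) (Fin n) F)) (nondeg_QQ Matrix.transpose_one h2 (Matrix.mul_one 1)) Y
  intro v hv
  by_cases hv0 : v = 0
  · subst hv0
    exact ⟨0, by rw [sm_zero, zero_smul]⟩
  · have h1 := hfix Y hYL _ ⟨v, hv0, rfl⟩
    rw [smul_line] at h1
    have h3 : sm Y v ∈ line F v := by
      rw [← h1]
      exact self_mem_line _
    obtain ⟨k, hk⟩ := h3
    exact ⟨k, hk.symm⟩

end Main

end Cfsg.Agent.Lib.Classical.PslBal.Alt
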