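import Mathlib
import Cfsg.Agent.Lib.Classical.PslBal.Alt
import Cfsg.Agent.Lib.Classical.OrthAut.FldBal3
import Cfsg.Agent.Lib.Classical.OrthAut.BalG

/-!
# Local balance for `PSL`: the main theorem
-/

set_option autoImplicit false
set_option linter.unusedSectionVars false
set_option linter.unusedVariables false
set_option linter.unusedSimpArgs false
set_option linter.style.haveILetI false

open scoped Matrix MatrixGroups
open Cfsg
open Cfsg.Agent.Lib.Classical.Herm.Descent Cfsg.Agent.Lib.Classical.Herm.GLDescent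
open Cfsg.Agent.Lib.Classical.Herm.PSLGraphField
open Cfsg.Agent.Lib.Linalg.AutPSLBasic Cfsg.Agent.Lib.Linalg.AutPSLStd Cfsg.Agent.Lib.Linalg.AutPSLCount
open Cfsg.Agent.Lib.Linalg.AutPSLMain
open Cfsg.Agent.Lib.Classical.PslBal.Fld Cfsg.Agent.Lib.Classical.PslBal.Blk

namespace Cfsg.Agent.Lib.Classical.PslBal.Main

variable {n : ℕ} {F : Type*} [Field F] [Fintype F]

local notation "Pn" => Matrix.ProjectiveSpecialLinearGroup (Fin n) F

attribute [local instance] finite_ringAut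

/-- An element of odd order is of the form `conjP G * fieldP σ`. -/
theorem isCF_of_odd {r f : ℕ} [Fact r.Prime] (hn : 3 ≤ n) (hf : 1 ≤ f) (hF : Nat.card F = r ^ f) (α : MulAut Pn) {m : ℕ} (hm : Odd m)
    (hα : α ^ m = 1) : IsCF α := by
  obtain ⟨⟨σ, e⟩, h⟩ := exists_isStd hn hf hF α
  simp only at h
  have hpow : ∀ k : ℕ, IsStd (α ^ k) (σ ^ k) (k • e) := by
    intro k
    induction k with
    | zero =>
      refine ⟨1, ?_⟩
      simp [conjP_one, fieldP_one, itPow_zero]
    | succ k ih =>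
      rw [pow_succ, pow_succ, succ_nsmul]
      exact ih.mul hn h
  have h1 := hpow m
  rw [hα] at h1
  have h2 : IsStd (1 : MulAut Pn) 1 0 := ⟨1, by simp [conjP_one, fieldP_one, itPow_zero]⟩
  have h3 := (h1.unique hn h2).2
  have he : e = 0 := by
    obtain ⟨t, rfl⟩ := hm
    rcases zmod2_cases e with h4 | h4
    · exact h4
    · exfalso
      rw [h4, nsmul_one] at h3
      have h5 : (((2 * t + 1 : ℕ)) : ZMod 2) = 1 := by
        push_cast
        rw [show (2 : ZMod 2) = 0 from rfl]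
        simp
      rw [h5] at h3
      exact absurd h3 (by decide)
  subst he
  obtain ⟨G, hG⟩ := h
  refine ⟨G, σ, ?_⟩
  rw [hG, itPow_zero, mul_one]

/-- The case of a field-type automorphism. -/
theorem field_case {r f p : ℕ} [hr : Fact r.Prime] [CharP F r] [hp : Fact p.Prime] (hF : Fintype.card F = r ^ f) (hf : 1 ≤ f) (hn : 2 ≤ n)
    (𝒢 : Subgroup (MulAut Pn)) (hinn : ∀ k : Pn, MulAut.conj k ∈ 𝒢) (hpr : p ≠ r) (β : MulAut Pn) (hord : orderOf β = p)
    (G : GL (Fin n) F) (σ : F ≃+* F) (hβ : β = conjP G * fieldP σ) (hσ : σ ≠ 1) :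
    Cfsg.pPrimeCore p ↥(𝒢 ⊓ Subgroup.centralizer {β}) ≠ ⊥ ↔
      Nat.Coprime p (Nat.card ↥(MonoidHom.eqLocus β.toMonoidHom (MonoidHom.id Pn))) := by
  classical
  haveI : NeZero n := ⟨by omega⟩
  have hinj := conj_injective (n := n) (F := F) hn
  have hσp : orderOf σ = p := by
    apply orderOf_eq_prime _ hσ
    have h1 : β ^ p = 1 := by
      rw [← hord, pow_orderOf_eq_one]
    rw [hβ, pow_conj_field] at h1
    exact rigid_field hn h1
  have hβσ : (conjP G * fieldP σ : MulAut Pn) ^ orderOf σ = 1 := by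
    rw [← hβ, hσp, ← hord, pow_orderOf_eq_one]
  obtain ⟨k, hk⟩ := exists_conj_GL hn σ G hβσ
  letI : Fintype (fixF σ) := Fintype.ofFinite _
  refine Cfsg.Agent.Lib.Classical.OrthAut.FldBal.core_iff hinj hp.out 𝒢 hinn β (conjP k)⁻¹ (fieldP σ) ?_ ?_ ?_
  · rw [hβ, ← hk]
    group
  · intro hdvd C L hC hK hLC hLn hco
    exact field_bal (j := (fixF σ).subtype) hF hf hn hσp hpr (fun k => k.2) (fun x hx => ⟨⟨x, hx⟩, rfl⟩) hdvd C L hC hK hLC hLn hco
  · obtain ⟨i, l, hil⟩ : ∃ i l : Fin n, i ≠ l := by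
      haveI : Nontrivial (Fin n) := Fin.nontrivial_iff_two_le.mpr hn
      exact exists_pair_ne _
    refine ⟨mkP (Matrix.SpecialLinearGroup.transvection hil 1), ?_, ?_⟩
    · intro h
      have h1 : mkP (Matrix.SpecialLinearGroup.transvection hil (1 : F)) = mkP (Matrix.SpecialLinearGroup.transvection hil (0 : F)) := by
        rw [h, Matrix.SpecialLinearGroup.transvection_coeff_zero, map_one]
      exact one_ne_zero (tv_inj_P hil h1)
    · rw [fieldP_tv, map_one]

/-- `β` squared in the graph case. -/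
theorem sq_graph (hn : 3 ≤ n) (G : GL (Fin n) F) (σ : F ≃+* F)
    (h : (conjP G * gfP σ : MulAut Pn) * (conjP G * gfP σ) = 1) : σ ^ 2 = 1 := by
  haveI : NeZero n := ⟨by omega⟩
  have h1 : (conjP G * gfP σ : MulAut Pn) * (conjP G * gfP σ) = conjP (G * mapG σ (trI G)) * fieldP (σ ^ 2) := by
    rw [mul_assoc, ← mul_assoc (gfP σ), gfP_mul_conjP, mul_assoc _ (gfP σ), gfP_sq hn, conjP_mul, mul_assoc]
  rw [h1] at h
  exact rigid_field (by omega) h

/-- The form attached to a graph involution is symmetric or alternating. -/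
theorem form_of_sq (hn : 3 ≤ n) (G : GL (Fin n) F) (h2 : (2 : F) ≠ 0)
    (h : (conjP G * itP : MulAut Pn) * (conjP G * itP) = 1) :
    (G : Matrix (Fin n) (Fin n) F).transpose = G ∨ (G : Matrix (Fin n) (Fin n) F).transpose = -(G : Matrix (Fin n) (Fin n) F) := by
  haveI : NeZero n := ⟨by omega⟩
  have h1 : (conjP G * itP : MulAut Pn) * (conjP G * itP) = conjP (G * trI G) := by
    rw [mul_assoc, ← mul_assoc itP, itP_mul_conjP, mul_assoc _ itP, itP_mul_itP hn, mul_one, conjP_mul]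
  rw [h1] at h
  obtain ⟨u, hu⟩ := exists_scalar_of_conjP (by omega) h
  have h3 : (G : Matrix (Fin n) (Fin n) F) = (u : F) • (G : Matrix (Fin n) (Fin n) F).transpose := by
    have h4 := congrArg (fun g : GL (Fin n) F => (g : Matrix (Fin n) (Fin n) F) * (G : Matrix (Fin n) (Fin n) F).transpose) hu
    simp only [Units.val_mul, coe_sG, coe_trI] at h4
    have h5 : ((G⁻¹ : GL (Fin n) F) : Matrix (Fin n) (Fin n) F).transpose * (G : Matrix (Fin n) (Fin n) F).transpose = 1 := by
      rw [← Matrix.transpose_mul, ← Units.val_mul]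
      simp
    rw [Matrix.mul_assoc, h5, Matrix.mul_one, Matrix.scalar_apply, ← Matrix.smul_one_eq_diagonal, Matrix.smul_mul, Matrix.one_mul] at h4
    exact h4
  have h4 : (G : Matrix (Fin n) (Fin n) F).transpose = (u : F) • (G : Matrix (Fin n) (Fin n) F) := by
    have h5 := congrArg Matrix.transpose h3
    rw [Matrix.transpose_smul, Matrix.transpose_transpose] at h5
    exact h5
  obtain ⟨a, b, hab⟩ := exists_entry_ne_zero (by omega : 1 ≤ n) G
  have h5 : (u : F) * u = 1 := by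
    have h6 := congrFun (congrFun h3 a) b
    rw [h4] at h6
    simp only [Matrix.smul_apply, smul_eq_mul] at h6
    apply mul_right_cancel₀ hab
    linear_combination -h6
  rcases mul_self_eq_one_iff.1 h5 with h6 | h6
  · left
    rw [h4, h6, one_smul]
  · right
    rw [h4, h6, neg_smul, one_smul]

/-- **Balance in the graph case.** -/
theorem graph_case {r f : ℕ} [hr : Fact r.Prime] (hF : Fintype.card F = r ^ f) (hf : 1 ≤ f) (hn : 3 ≤ n) (h2 : (2 : F) ≠ 0)
    (𝒢 : Subgroup (MulAut Pn)) (hinn : ∀ k : Pn, MulAut.conj k ∈ 𝒢) (β : MulAut Pn) (hord : orderOf β = 2)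
    (G : GL (Fin n) F) (σ : F ≃+* F) (hβ : β = conjP G * fieldP σ * itP) :
    Cfsg.pPrimeCore 2 ↥(𝒢 ⊓ Subgroup.centralizer {β}) = ⊥ := by
  classical
  haveI : NeZero n := ⟨by omega⟩
  have hn2 : 2 ≤ n := by omega
  have hinj := conj_injective (n := n) (F := F) hn2
  have hFn : Nat.card F = r ^ f := by rw [Nat.card_eq_fintype_card, hF]
  have hsq : β * β = 1 := by
    rw [← pow_two, ← hord, pow_orderOf_eq_one]
  have hCm : ∀ {c : MulAut Pn}, c ∈ 𝒢 ⊓ Subgroup.centralizer {β} ↔ c ∈ 𝒢 ∧ c * β = β * c := by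
    intro c
    rw [Subgroup.mem_inf, Subgroup.mem_centralizer_singleton_iff]
  apply Cfsg.Agent.Lib.Classical.OrthAut.BalG.core_bot_of_main
  intro L hLC hLn hodd
  have hLcf : ∀ α ∈ L, ∃ (A : GL (Fin n) F) (τ : F ≃+* F), α = conjP A * fieldP τ := by
    intro α hα
    have h1 : α ^ Nat.card L = 1 := by
      apply orderOf_dvd_iff_pow_eq_one.1
      rw [← Subgroup.orderOf_mk α hα]
      exact orderOf_dvd_natCard _
    exact isCF_of_odd hn hf hFn α hodd h1
  have hLx : ∀ α ∈ L, α * β = β * α := fun α hα => (hCm.1 (hLC hα)).2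
  have hCs : ∀ k : Pn, MulAut.conj k * β = β * MulAut.conj k → MulAut.conj k ∈ 𝒢 ⊓ Subgroup.centralizer {β} :=
    fun k hk => hCm.2 ⟨hinn k, hk⟩
  by_cases hσ : σ = 1
  · subst hσ
    rw [fieldP_one, mul_one] at hβ
    subst hβ
    rcases form_of_sq hn G h2 hsq with hG | hG
    · exact Cfsg.Agent.Lib.Classical.PslBal.Sym.sym_main hn h2 hG _ L hLx hCs hLn hodd hLcf
    · exact Cfsg.Agent.Lib.Classical.PslBal.Alt.alt_main hn h2 hG _ L hCs hLn hodd hLcf
  · have hβ' : β = conjP G * gfP σ := by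
      rw [hβ, gfP, mul_assoc]
    have hσ2 : σ ^ 2 = 1 := sq_graph hn G σ (by rw [← hβ', hsq])
    obtain ⟨-, hq, hσe⟩ := involution_eq hF hf σ hσ hσ2
    subst hσe
    obtain ⟨k, hk⟩ := gf_conj_of_sq hn hq G (by rw [← hβ', hsq])
    set x := gfP (sigE hq) with hx
    set D : MulAut Pn := (conjP k)⁻¹ with hD
    have hDβ : D * β * D⁻¹ = x := by
      rw [hβ', ← hk, hD]
      group
    have hL' : L.map (MulAut.conj D).toMonoidHom = ⊥ := by
      apply Cfsg.Agent.Lib.Classical.PslBal.Uni.unitary_bal hq hF hf h2 hn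
        ((𝒢 ⊓ Subgroup.centralizer {β}).map (MulAut.conj D).toMonoidHom) _ ?_ ?_ ?_ ?_ ?_ ?_
      · rintro _ ⟨c, hc, rfl⟩
        have h1 := (hCm.1 hc).2
        change D * c * D⁻¹ * x = x * (D * c * D⁻¹)
        rw [← hDβ]
        calc D * c * D⁻¹ * (D * β * D⁻¹) = D * (c * β) * D⁻¹ := by group
          _ = D * (β * c) * D⁻¹ := by rw [h1]
          _ = _ := by group
      · intro y hy
        have hy' : x y = y := hy
        refine ⟨MulAut.conj (D⁻¹ y), hCs _ ?_, ?_⟩
        · have h3 : β (D⁻¹ y) = D⁻¹ y := by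
            have h4 : β = D⁻¹ * x * D := by
              rw [← hDβ]
              group
            rw [h4]
            simp only [MulAut.mul_apply, MulAut.apply_inv_self]
            rw [hy']
          rw [aut_mul_conj, h3]
        · change D * MulAut.conj (D⁻¹ y) * D⁻¹ = MulAut.conj y
          rw [aut_mul_conj, mul_inv_cancel_right, MulAut.apply_inv_self]
      · rintro _ ⟨c, hc, rfl⟩
        exact ⟨c, hLC hc, rfl⟩
      · rintro _ ⟨c, hc, rfl⟩ _ ⟨y, hy, rfl⟩
        refine ⟨c * y * c⁻¹, hLn c hc y hy, ?_⟩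
        simp [map_mul, map_inv]
      · rw [Nat.card_congr (L.equivMapOfInjective _ (MulEquiv.injective (MulAut.conj D))).toEquiv.symm]
        exact Nat.coprime_two_right.2 hodd
      · rintro _ ⟨α, hα, rfl⟩
        have h1 : IsCF α := hLcf α hα
        have h3 : IsCF D := by
          rw [hD]
          refine IsCF.inv ⟨k, 1, ?_⟩
          rw [fieldP_one, mul_one]
        exact (h3.mul h1).mul h3.inv
    rw [Subgroup.eq_bot_iff_forall]
    intro y hy
    have h1 : (MulAut.conj D).toMonoidHom y ∈ L.map (MulAut.conj D).toMonoidHom := ⟨y, hy, rfl⟩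
    rw [hL', Subgroup.mem_bot] at h1
    exact (MulAut.conj D).map_eq_one_iff.1 h1

/-- **Local balance for `PSL`.** -/
theorem main (F : Type*) [Field F] [Fintype F] (r : ℕ) [Fact r.Prime] [CharP F r] (n : ℕ) (hn : 2 ≤ n)
    (𝒢 : Subgroup (MulAut (Matrix.ProjectiveSpecialLinearGroup (Fin n) F))) (hinn : ∀ k : Matrix.ProjectiveSpecialLinearGroup (Fin n) F, MulAut.conj k ∈ 𝒢)
    (p : ℕ) [Fact p.Prime] (hpr : p ≠ r) (β : MulAut (Matrix.ProjectiveSpecialLinearGroup (Fin n) F)) (hord : orderOf β = p)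
    (hnot : ¬ Cfsg.IsInnerDiagonalAutPSL β) :
    Cfsg.pPrimeCore p ↥(𝒢 ⊓ Subgroup.centralizer {β}) ≠ ⊥ ↔
      ((∃ γ φ : MulAut (Matrix.ProjectiveSpecialLinearGroup (Fin n) F), Cfsg.IsInnerDiagonalAutPSL γ ∧ Cfsg.IsFieldAutPSL φ ∧ β = φ.trans γ) ∧
        Nat.Coprime p (Nat.card ↥(MonoidHom.eqLocus β.toMonoidHom (MonoidHom.id (Matrix.ProjectiveSpecialLinearGroup (Fin n) F))))) := by
  classical
  obtain ⟨f', hr', hF'⟩ := FiniteField.card F r
  have hF₀ : Fintype.card F = r ^ (f' : ℕ) := hF'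
  have hf : 1 ≤ (f' : ℕ) := f'.pos
  have hFn : Nat.card F = r ^ (f' : ℕ) := by rw [Nat.card_eq_fintype_card, hF₀]
  obtain ⟨G, σ, h | ⟨h3, h⟩⟩ := exists_std' hF₀ hf hn β
  · have hσ : σ ≠ 1 := by
      rintro rfl
      apply hnot
      rw [h, fieldP_one, mul_one]
      exact isInnerDiagonal_conjP G
    rw [field_case hF₀ hf hn 𝒢 hinn hpr β hord G σ h hσ]
    exact ⟨fun hc => ⟨⟨conjP G, fieldP σ, isInnerDiagonal_conjP G, ⟨σ, isStdField_fieldP σ⟩, h⟩, hc⟩, fun h => h.2⟩
  · have hnotCF : ¬ IsCF β := by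
      intro hc
      apply itP_not_isCF (F := F) h3
      have h1 : IsCF (conjP G * fieldP σ) := ⟨G, σ, rfl⟩
      have h4 := h1.inv.mul hc
      rw [h, inv_mul_cancel_left] at h4
      exact h4
    have hp2 : p = 2 := by
      rcases (Fact.out : p.Prime).eq_two_or_odd' with h1 | h1
      · exact h1
      · exfalso
        apply hnotCF
        exact isCF_of_odd h3 hf hFn β h1 (by rw [← hord, pow_orderOf_eq_one])
    subst hp2
    have h2 : (2 : F) ≠ 0 := by
      intro h0
      have h1 : r ∣ 2 := by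
        rw [← CharP.cast_eq_zero_iff F r 2]
        exact_mod_cast h0
      exact hpr ((Nat.prime_dvd_prime_iff_eq (Fact.out : r.Prime) Nat.prime_two).1 h1).symm
    have hbot := graph_case hF₀ hf h3 h2 𝒢 hinn β hord G σ h
    constructor
    · intro hc
      exact absurd hbot hc
    · rintro ⟨⟨γ, φ, hγ, ⟨σ', hφ⟩, hβ'⟩, -⟩
      exfalso
      apply hnotCF
      obtain ⟨g, rfl⟩ := (isInnerDiagPSL_iff γ).1 hγ
      have h4 := isStd_eq σ' φ hφ
      subst h4
      exact ⟨g, σ', hβ'⟩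

end Cfsg.Agent.Lib.Classical.PslBal.Main
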